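import Cfsg.Agent.H91.Sims.Windowed

/-!
From a subgroup `P` meeting `ψ⁻¹ P` in a normal subgroup of prime index, with no nontrivial
normal `ψ`-invariant subgroup of `P`, to a Sims sequence of windows.
-/

open scoped Pointwise


namespace Cfsg.Agent.H91.Sims

variable {G : Type*} [Group G]

theorem card_smul_subgroup (a : MulAut G) (H : Subgroup G) :
    Nat.card (a • H : Subgroup G) = Nat.card H :=
  (Nat.card_congr (Subgroup.equivSMul a H).toEquiv).symm

theorem card_mul_relIndex {H K : Subgroup G} (h : H ≤ K) :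
    Nat.card H * H.relIndex K = Nat.card K := by
  have := Subgroup.relIndex_mul_relIndex (⊥ : Subgroup G) H K bot_le h
  rwa [Subgroup.relIndex_bot_left, Subgroup.relIndex_bot_left] at this

/-- A subgroup of index `p` in a `p`-group is normal there. -/
theorem le_normalizer_of_card_eq [Finite G] {p : ℕ} (hp : p.Prime) {H K : Subgroup G} (h : H ≤ K)
    {a : ℕ} (hH : Nat.card H = p ^ a) (hK : Nat.card K = p ^ (a + 1)) :
    K ≤ Subgroup.normalizer (H : Set G) := by
  have hi : (H.subgroupOf K).index = p := by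
    have := card_mul_relIndex h
    rw [hH, hK, pow_succ] at this
    exact mul_left_cancel₀ (pow_ne_zero _ hp.ne_zero) this
  haveI : (H.subgroupOf K).Normal :=
    Subgroup.normal_of_index_eq_minFac_card (by rw [hi, hK, hp.pow_minFac (Nat.succ_ne_zero a)])
  exact Subgroup.le_normalizer_of_normal_subgroupOf h

/-- A subgroup strictly between `p ^ a` and above is everything at `p ^ (a+1)`. -/
theorem eq_of_lt_of_card [Finite G] {p : ℕ} (hp : p.Prime) {H S K : Subgroup G} (h : H < S)
    (h' : S ≤ K) {a : ℕ} (hH : Nat.card H = p ^ a) (hK : Nat.card K = p ^ (a + 1)) : S = K := by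
  obtain ⟨b, hb, hS⟩ := (Nat.dvd_prime_pow hp).1 (hK ▸ Subgroup.card_dvd_of_le h')
  refine Subgroup.eq_of_le_of_card_ge h' ?_
  have hlt : Nat.card H < Nat.card S :=
    lt_of_le_of_ne (Nat.le_of_dvd Nat.card_pos (Subgroup.card_dvd_of_le h.le))
      (fun e => h.ne (Subgroup.eq_of_le_of_card_ge h.le e.ge))
  rw [hH, hS] at hlt
  rw [hK, hS]
  exact Nat.pow_le_pow_right hp.pos ((Nat.pow_lt_pow_iff_right hp.one_lt).1 hlt)

/-- `win` under powers of a shift. -/
theorem smul_win {ψ : MulAut G} {x : ℤ → G} (hx : ∀ i k : ℤ, (ψ ^ k) (x i) = x (i + k))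
    (k a b : ℤ) : ψ ^ k • win x a b = win x (a + k) (b + k) := by
  rw [win, win, Subgroup.smul_closure]
  congr 1
  ext y
  constructor
  · rintro ⟨_, ⟨i, ⟨hi₁, hi₂⟩, rfl⟩, rfl⟩
    exact ⟨i + k, ⟨by omega, by omega⟩, (hx i k).symm⟩
  · rintro ⟨i, ⟨hi₁, hi₂⟩, rfl⟩
    exact ⟨x (i - k), ⟨i - k, ⟨by omega, by omega⟩, rfl⟩, by
      show (ψ ^ k) (x (i - k)) = x i
      rw [hx, sub_add_cancel]⟩

/-- Construction of the Sims sequence. -/
theorem exists_windowed [Finite G] (P : Subgroup G) (ψ : MulAut G) {p : ℕ} (hp : p.Prime)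
    (hN : ((P ⊓ ψ⁻¹ • P).subgroupOf (ψ⁻¹ • P)).Normal)
    (hidx : (P ⊓ ψ⁻¹ • P).relIndex (ψ⁻¹ • P) = p)
    (h1 : ∀ Q : Subgroup G, Q ≤ P → (Q.subgroupOf P).Normal → ψ • Q = Q → Q = ⊥) :
    ∃ (t : ℕ) (x : ℤ → G), 1 ≤ t ∧ Windowed p t x ∧ (∀ i k : ℤ, (ψ ^ k) (x i) = x (i + k)) ∧
      win x 0 t = P := by
  classical
  haveI : Fact p.Prime := ⟨hp⟩
  -- `P` is a `p`-group
  have hpP : IsPGroup p P := by
    let E : Subgroup G := Subgroup.closure {x | x ∈ P ∧ (orderOf x).Coprime p}
    have hEP : E ≤ P := (Subgroup.closure_le _).2 fun x hx => hx.1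
    have hE : ψ⁻¹ • E ≤ E := by
      rw [Subgroup.smul_closure, Subgroup.closure_le]
      rintro _ ⟨x, ⟨hxP, hxo⟩, rfl⟩
      have ho : orderOf (ψ⁻¹ • x) = orderOf x :=
        orderOf_injective (ψ⁻¹ : MulAut G).toMonoidHom (ψ⁻¹ : MulAut G).injective x
      refine Subgroup.subset_closure ⟨?_, ho.symm ▸ hxo⟩
      set y : (ψ⁻¹ • P : Subgroup G) :=
        ⟨ψ⁻¹ • x, Subgroup.smul_mem_pointwise_smul x ψ⁻¹ P hxP⟩
      haveI := hN
      have h2 := Subgroup.pow_index_mem ((P ⊓ ψ⁻¹ • P).subgroupOf (ψ⁻¹ • P)) y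
      rw [show ((P ⊓ ψ⁻¹ • P).subgroupOf (ψ⁻¹ • P)).index = p from hidx,
        Subgroup.mem_subgroupOf] at h2
      obtain ⟨m, hm⟩ := exists_pow_eq_self_of_coprime (x := ψ⁻¹ • x) (ho.symm ▸ hxo.symm)
      show ψ⁻¹ • x ∈ P
      rw [← hm]
      exact P.pow_mem (Subgroup.mem_inf.1 h2).1 m
    have hE' : ψ⁻¹ • E = E := Subgroup.eq_of_le_of_card_ge hE (card_smul_subgroup _ _).ge
    have hEn : (E.subgroupOf P).Normal := by
      refine ⟨fun a ha b => ?_⟩
      rw [Subgroup.mem_subgroupOf] at ha ⊢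
      have : E ≤ E.comap (MulAut.conj (b : G)).toMonoidHom := by
        refine (Subgroup.closure_le _).2 fun z hz => Subgroup.subset_closure ⟨?_, ?_⟩
        · exact P.mul_mem (P.mul_mem b.2 hz.1) (P.inv_mem b.2)
        · rw [orderOf_injective (MulAut.conj (b : G)).toMonoidHom (MulAut.conj (b : G)).injective z]
          exact hz.2
      simpa using this ha
    have hE0 : E = ⊥ := h1 E hEP hEn (by rw [← hE', smul_inv_smul, hE'])
    intro g
    obtain ⟨k, hk⟩ : ∃ k, k = (orderOf (g : G)).factorization p := ⟨_, rfl⟩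
    refine ⟨k, Subtype.ext ?_⟩
    have hmem : (g : G) ^ p ^ k ∈ E := by
      refine Subgroup.subset_closure ⟨P.pow_mem g.2 _, ?_⟩
      rw [orderOf_pow_of_dvd (pow_ne_zero _ hp.ne_zero) (hk ▸ Nat.ordProj_dvd _ _), hk]
      exact (Nat.coprime_ordCompl hp (orderOf_pos _).ne').symm
    rw [hE0, Subgroup.mem_bot] at hmem
    simpa using hmem
  obtain ⟨t, ht⟩ := IsPGroup.iff_card.1 hpP
  obtain ⟨D, hD0, hDs⟩ :
      ∃ D : ℕ → Subgroup G, D 0 = P ∧ ∀ k, D (k + 1) = P ⊓ ψ⁻¹ • D k :=
    ⟨fun k => (fun S : Subgroup G => P ⊓ ψ⁻¹ • S)^[k] P, rfl,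
      fun k => Function.iterate_succ_apply' _ k P⟩
  have hmono : ∀ k, D (k + 1) ≤ D k := by
    intro k
    induction k with
    | zero => exact (hDs 0).le.trans (inf_le_left.trans hD0.ge)
    | succ k ih =>
      rw [hDs (k + 1)]
      exact (inf_le_inf_left _ (Subgroup.pointwise_smul_le_pointwise_smul_iff.2 ih)).trans (hDs k).ge
  have hDle : ∀ k, D (k + 1) ≤ ψ⁻¹ • D k := fun k => (hDs k).le.trans inf_le_right
  have hDP : ∀ k, D k ≤ P := fun k => by
    induction k with
    | zero => exact hD0.le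
    | succ k ih => exact (hmono k).trans ih
  have hcard : ∀ k, ∃ a, Nat.card (D k) = p ^ a := fun k => by
    obtain ⟨a, -, ha⟩ := (Nat.dvd_prime_pow hp).1 (ht ▸ Subgroup.card_dvd_of_le (hDP k))
    exact ⟨a, ha⟩
  -- the index drops by at most `p`
  have hstep : ∀ k, D (k + 1) = D k ∨
      ∃ a, Nat.card (D (k + 1)) = p ^ a ∧ Nat.card (D k) = p ^ (a + 1) := by
    intro k
    obtain ⟨a, ha⟩ := hcard (k + 1)
    obtain ⟨b, hb⟩ := hcard k
    have hc := card_mul_relIndex (hDle k)
    rw [card_smul_subgroup, ha, hb] at hc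
    have hle : (D (k + 1)).relIndex (ψ⁻¹ • D k) ≤ p := by
      rw [hDs, Subgroup.inf_relIndex_right]
      have h0 : P.relIndex (ψ⁻¹ • P) = p := by rw [← Subgroup.inf_relIndex_right]; exact hidx
      calc P.relIndex (ψ⁻¹ • D k) ≤ P.relIndex (ψ⁻¹ • P) :=
            Subgroup.relIndex_le_of_le_right
              (Subgroup.pointwise_smul_le_pointwise_smul_iff.2 (hDP k)) (h0 ▸ hp.ne_zero)
        _ = p := h0
    have hab : a ≤ b := (Nat.pow_le_pow_iff_right hp.one_lt).1
      (ha ▸ hb ▸ Nat.le_of_dvd Nat.card_pos (Subgroup.card_dvd_of_le (hmono k)))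
    have hba : b ≤ a + 1 := by
      refine (Nat.pow_le_pow_iff_right hp.one_lt).1 ?_
      rw [← hc, pow_succ]
      exact Nat.mul_le_mul_left _ hle
    rcases Nat.eq_or_lt_of_le hab with h | h
    · exact Or.inl (Subgroup.eq_of_le_of_card_ge (hmono k) (by rw [ha, hb, h]))
    · exact Or.inr ⟨a, ha, by rw [hb]; congr 1; omega⟩
  have hfix : ∀ k, D (k + 1) = D k → ψ⁻¹ • D k = D k := fun k hk =>
    (Subgroup.eq_of_le_of_card_ge (hk.ge.trans (hDle k)) (card_smul_subgroup _ _).le).symm
  have hgen : ∀ j, D (j + 2) ≠ D (j + 1) → D j = D (j + 1) ⊔ ψ • D (j + 1) := by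
    intro j hj
    have hle : ψ • D (j + 1) ≤ D j := by
      have h := Subgroup.pointwise_smul_le_pointwise_smul_iff (a := ψ).2
        (hDle j)
      rwa [smul_inv_smul] at h
    have hne : ¬ ψ • D (j + 1) ≤ D (j + 1) := by
      intro h
      have he : ψ • D (j + 1) = D (j + 1) :=
        Subgroup.eq_of_le_of_card_ge h (card_smul_subgroup _ _).ge
      have he' : ψ⁻¹ • D (j + 1) = D (j + 1) := by
        conv_lhs => rw [← he]
        exact inv_smul_smul _ _
      exact hj (by rw [hDs, he', inf_eq_right.2 (hDP _)])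
    rcases hstep j with h | ⟨a, ha, hb⟩
    · exact absurd (hle.trans h.ge) hne
    · refine (eq_of_lt_of_card hp ?_ (sup_le (hmono j) hle) ha hb).symm
      exact lt_of_le_of_ne le_sup_left fun e => hne (le_sup_right.trans_eq e.symm)
  have hP0 : D 1 ≠ D 0 := by
    intro e
    have h := hfix 0 e
    rw [hD0] at h
    rw [h, inf_idem, Subgroup.relIndex_self] at hidx
    exact hp.one_lt.ne hidx
  have hstrict : ∀ k, D (k + 1) = D k → D k = ⊥ := by
    intro k hk
    have hex : ∃ k, D (k + 1) = D k := ⟨k, hk⟩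
    set k₀ := Nat.find hex with hk₀def
    have hk₀ : D (k₀ + 1) = D k₀ := Nat.find_spec hex
    have hmin : ∀ j < k₀, D (j + 1) ≠ D j := fun j hj => Nat.find_min hex hj
    suffices hbot : D k₀ = ⊥ by
      have hle : ∀ i, D (k₀ + i) = ⊥ := by
        intro i
        induction i with
        | zero => exact hbot
        | succ i ih => exact le_bot_iff.1 ((hmono (k₀ + i)).trans_eq ih)
      obtain ⟨i, rfl⟩ : ∃ i, k = k₀ + i := ⟨k - k₀, (Nat.add_sub_cancel'
        (Nat.find_min' hex hk)).symm⟩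
      exact hle i
    set E := D k₀ with hEdef
    have hE : ψ⁻¹ • E = E := hfix k₀ hk₀
    have hE' : ψ • E = E := by
      conv_lhs => rw [← hE]
      exact smul_inv_smul _ _
    obtain ⟨k', hk'⟩ : ∃ k', k₀ = k' + 1 :=
      Nat.exists_eq_succ_of_ne_zero fun h0 => hP0 (by have := Nat.find_spec hex; rw [← hk₀def, h0] at this; exact this)
    let N : Subgroup G := Subgroup.normalizer (E : Set G)
    have hN' : ψ • N ≤ N := by
      intro y hy
      rw [Subgroup.mem_pointwise_smul_iff_inv_smul_mem] at hy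
      have hmem : ∀ z, z ∈ E ↔ ψ⁻¹ • z ∈ E := fun z => by
        conv_lhs => rw [← hE']
        exact Subgroup.mem_pointwise_smul_iff_inv_smul_mem
      refine Subgroup.mem_normalizer_iff.2 fun z => ?_
      rw [hmem z, hmem (y * z * y⁻¹), smul_mul', smul_mul', smul_inv']
      exact Subgroup.mem_normalizer_iff.1 hy _
    have hall : ∀ i, i ≤ k' → D (k' - i) ≤ N := by
      intro i
      induction i with
      | zero =>
        intro _
        rcases hstep k' with h | ⟨a, ha, hb⟩
        · exact absurd h (hmin k' (by omega))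
        · have := le_normalizer_of_card_eq hp (hmono k') ha hb
          rwa [← hk'] at this
      | succ i ih =>
        intro hi
        have h2 := hgen (k' - (i + 1)) (hmin _ (by omega))
        rw [h2, show k' - (i + 1) + 1 = k' - i by omega]
        exact sup_le (ih (by omega))
          ((Subgroup.pointwise_smul_le_pointwise_smul_iff.2 (ih (by omega))).trans hN')
    have hPN : P ≤ N := by
      have := hall k' le_rfl
      rwa [Nat.sub_self, hD0] at this
    exact h1 E (hDP _) ((Subgroup.normal_subgroupOf_iff_le_normalizer (hDP _)).2 hPN) hE'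
  have hcardD : ∀ k, k ≤ t → Nat.card (D k) = p ^ (t - k) := by
    intro k
    induction k with
    | zero => intro _; rw [hD0]; exact ht
    | succ k ih =>
      intro hk
      rcases hstep k with h | ⟨a, ha, hb⟩
      · have := ih (by omega)
        rw [hstrict k h, Subgroup.card_bot] at this
        exact absurd this (Nat.one_lt_pow (by omega) hp.one_lt).ne
      · rw [ih (by omega)] at hb
        have := Nat.pow_right_injective hp.two_le hb
        rw [ha]; congr 1; omega
  have ht1 : 1 ≤ t := by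
    by_contra h
    have h0 : D 0 = ⊥ := Subgroup.card_eq_one.1 (by rw [hcardD 0 (by omega)]; simp; omega)
    exact hP0 (by rw [h0]; exact le_bot_iff.1 ((hmono 0).trans_eq h0))
  obtain ⟨x₀, hx₀, hx₀1⟩ : ∃ g ∈ D (t - 1), g ≠ 1 := by
    refine (Subgroup.bot_or_exists_ne_one _).resolve_left ?_
    intro e
    have := hcardD (t - 1) (by omega)
    rw [e, Subgroup.card_bot, show t - (t - 1) = 1 by omega, pow_one] at this
    exact hp.one_lt.ne this
  let x : ℤ → G := fun i => (ψ ^ i) x₀
  have hx : ∀ i k : ℤ, (ψ ^ k) (x i) = x (i + k) := fun i k => by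
    show (ψ ^ k) ((ψ ^ i) x₀) = (ψ ^ (i + k)) x₀
    rw [add_comm, zpow_add, MulAut.mul_apply]
  have hwin1 : win x 0 1 = D (t - 1) := by
    have := win_single x 0
    rw [zero_add] at this
    rw [this]
    refine Subgroup.eq_of_le_of_card_ge (Subgroup.zpowers_le.2 (by simpa [x] using hx₀)) ?_
    have hc := hcardD (t - 1) (by omega)
    rw [show t - (t - 1) = 1 by omega, pow_one] at hc
    have ho : orderOf x₀ ∣ p := hc ▸ Subgroup.orderOf_dvd_natCard _ hx₀
    rcases (Nat.dvd_prime hp).1 ho with h | h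
    · exact absurd (orderOf_eq_one_iff.1 h) hx₀1
    · rw [hc, Nat.card_zpowers]; simp [x, h]
  have hwin : ∀ m : ℕ, m ≤ t → win x 0 m = D (t - m) := by
    intro m
    induction m with
    | zero =>
      intro _
      rw [win_empty (by simp), Nat.sub_zero]
      exact (Subgroup.card_eq_one.1 (by rw [hcardD t le_rfl]; simp)).symm
    | succ m ih =>
      intro hm
      rcases Nat.eq_zero_or_pos m with rfl | hm0
      · simpa using hwin1
      · have h2 := hgen (t - (m + 1)) (fun e => by
          have h := hstrict _ e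
          have hc := hcardD (t - (m + 1) + 1) (by omega)
          rw [h, Subgroup.card_bot] at hc
          exact (Nat.one_lt_pow (by omega) hp.one_lt).ne hc)
        rw [h2, show t - (m + 1) + 1 = t - m by omega, ← ih (by omega)]
        have h3 : ψ • win x 0 m = win x 1 (m + 1) := by
          have := smul_win hx 1 0 m
          simpa [add_comm] using this
        rw [h3, Nat.cast_succ]
        exact (win_sup_win (by omega) (by omega) (by omega)).symm
  have hcardw : ∀ (a : ℤ) (m : ℕ), m ≤ t → Nat.card (win x a (a + m)) = p ^ m := by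
    intro a m hm
    have h := smul_win hx a 0 m
    rw [zero_add, add_comm (m : ℤ) a] at h
    rw [← h, card_smul_subgroup, hwin m hm, hcardD _ (by omega)]
    congr 1; omega
  refine ⟨t, x, ht1, ⟨hcardw, ?_, fun i j k hc => ?_⟩, hx, ?_⟩
  · intro i j hij hjt
    obtain ⟨m, rfl⟩ : ∃ m : ℕ, j = i + m := ⟨(j - i).toNat, by omega⟩
    have hm : m < t := by omega
    have hm1 : 1 ≤ m := by omega
    have h0 : x 0 * x m * (x 0)⁻¹ * (x m)⁻¹ ∈ win x 1 m := by
      have cA : Nat.card (win x 0 m) = p ^ m := by simpa using hcardw 0 m (by omega)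
      have cB : Nat.card (win x 1 (m + 1)) = p ^ m := by
        have := hcardw 1 m (by omega); rwa [add_comm] at this
      have cC : Nat.card (win x 0 (m + 1)) = p ^ (m + 1) := by
        simpa using hcardw 0 (m + 1) (by omega)
      have hA : win x 0 m ≤ win x 0 (m + 1) := win_mono le_rfl (by omega)
      have hB : win x 1 (m + 1) ≤ win x 0 (m + 1) := win_mono (by omega) le_rfl
      have nA := le_normalizer_of_card_eq hp hA cA cC
      have nB := le_normalizer_of_card_eq hp hB cB cC
      have x0C : x 0 ∈ win x 0 (m + 1) := mem_win le_rfl (by omega)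
      have xmC : x m ∈ win x 0 (m + 1) := mem_win (by omega) (by omega)
      have h1m : x 0 * x m * (x 0)⁻¹ * (x m)⁻¹ ∈ win x 0 m ⊓ win x 1 (m + 1) := by
        refine ⟨?_, ?_⟩
        · have h0A : x 0 ∈ win x 0 m := mem_win le_rfl (by omega)
          rw [show x 0 * x m * (x 0)⁻¹ * (x m)⁻¹ = x 0 * (x m * (x 0)⁻¹ * (x m)⁻¹) by group]
          exact (win x 0 m).mul_mem h0A ((Subgroup.mem_normalizer_iff.1 (nA xmC) _).1 ((win x 0 m).inv_mem h0A))
        · have hmB : x m ∈ win x 1 (m + 1) := mem_win (by omega) (by omega)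
          exact (win x 1 (m + 1)).mul_mem ((Subgroup.mem_normalizer_iff.1 (nB x0C) _).1 hmB) ((win x 1 (m + 1)).inv_mem hmB)
      have c1 : Nat.card (win x 1 m) = p ^ (m - 1) := by
        have := hcardw 1 (m - 1) (by omega)
        rwa [show (1 : ℤ) + (m - 1 : ℕ) = m by omega] at this
      have e : win x 1 m = win x 0 m ⊓ win x 1 (m + 1) := by
        refine Subgroup.eq_of_le_of_card_ge (le_inf (win_mono (by omega) le_rfl)
          (win_mono le_rfl (by omega))) ?_
        obtain ⟨b, hb, hbc⟩ := (Nat.dvd_prime_pow hp).1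
          (cA ▸ Subgroup.card_dvd_of_le (inf_le_left (b := win x 1 (m + 1))))
        rw [hbc, c1]
        refine Nat.pow_le_pow_right hp.pos ?_
        by_contra hlt
        have hbm : b = m := by omega
        rw [hbm] at hbc
        have e1 : win x 0 m ⊓ win x 1 (m + 1) = win x 0 m :=
          Subgroup.eq_of_le_of_card_ge inf_le_left (by rw [hbc, cA])
        have e2 : win x 0 m = win x 1 (m + 1) :=
          Subgroup.eq_of_le_of_card_ge (inf_eq_left.1 e1) (by rw [cA, cB])
        have e3 := win_sup_win (x := x) (show (0 : ℤ) ≤ 1 by omega) (show (1 : ℤ) ≤ m by omega)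
          (show (m : ℤ) ≤ m + 1 by omega)
        rw [← e2, sup_idem] at e3
        rw [← e3, cA] at cC
        exact (Nat.pow_lt_pow_right hp.one_lt (Nat.lt_succ_self m)).ne cC
      rw [e]; exact h1m
    have h2 := Subgroup.smul_mem_pointwise_smul _ (ψ ^ i) _ h0
    rw [smul_win hx, MulAut.smul_def, map_mul, map_mul, map_mul, map_inv, map_inv, hx, hx] at h2
    rwa [zero_add, add_comm (m : ℤ) i, add_comm (1 : ℤ) i] at h2
  · have h := hc.map (ψ ^ k).toMonoidHom
    simpa [hx] using h
  · rw [hwin t le_rfl, Nat.sub_self, hD0]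

end Cfsg.Agent.H91.Sims
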