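import Cfsg.Agent.H91.Sims.FinishBasics
import Cfsg.Agent.H19.Gaschutz

/-!
The end of the pushing up argument: the three possibilities for a group with dihedral top.
-/

open scoped Pointwise

namespace Cfsg.Agent.H91.Sims

variable {G : Type*} [Group G]

theorem card_map_mul_card_inf_ker {K D : Type*} [Group K] [Group D] (f : K →* D) (S : Subgroup K) :
    Nat.card (S.map f) * Nat.card ↥(S ⊓ f.ker) = Nat.card S := by
  rw [mul_comm, ← card_mul_relIndex (show S ⊓ f.ker ≤ S from inf_le_left), Subgroup.inf_relIndex_left,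
    Subgroup.relIndex_ker]

theorem mem_normalizer_inf {A B : Subgroup G} {g : G} (hA : g ∈ Subgroup.normalizer (A : Set G))
    (hB : g ∈ Subgroup.normalizer (B : Set G)) : g ∈ Subgroup.normalizer ((A ⊓ B : Subgroup G) : Set G) := by
  refine Subgroup.mem_normalizer_iff.2 fun z => ?_
  simp only [Subgroup.mem_inf]
  rw [Subgroup.mem_normalizer_iff.1 hA z, Subgroup.mem_normalizer_iff.1 hB z]

variable [Finite G] {H P : Subgroup G} {y : G} {n t : ℕ} {x : ℤ → G}

theorem PushUp.sq (h : PushUp H P y n t x) (i : ℤ) : x i ^ 2 = 1 := by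
  have := h.windowed.orderOf_eq (Nat.le_of_lt h.two_le) i
  rw [← this]; exact pow_orderOf_eq_one _

theorem PushUp.ne_one (h : PushUp H P y n t x) (i : ℤ) : x i ≠ 1 := by
  intro e
  have := h.windowed.orderOf_eq (Nat.le_of_lt h.two_le) i
  rw [e, orderOf_one] at this
  exact absurd this (by norm_num)

theorem PushUp.inv_eq (h : PushUp H P y n t x) (i : ℤ) : (x i)⁻¹ = x i :=
  inv_eq_of_mul_eq_one_right (by rw [← pow_two]; exact h.sq i)

theorem PushUp.mem_H (h : PushUp H P y n t x) {i : ℤ} (h1 : -1 ≤ i) (h2 : i < t) : x i ∈ H :=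
  h.win_H ▸ mem_win h1 h2

theorem PushUp.mem_P (h : PushUp H P y n t x) {i : ℤ} (h1 : 0 ≤ i) (h2 : i < t) : x i ∈ P :=
  h.win_P ▸ mem_win h1 h2

theorem PushUp.P_le_H (h : PushUp H P y n t x) : P ≤ H :=
  h.win_P ▸ h.win_H ▸ win_mono (by omega) le_rfl

/-- An element commuting with all generators centralises `H`. -/
theorem PushUp.central (h : PushUp H P y n t x) {i : ℤ}
    (hc : ∀ j : ℤ, -1 ≤ j → j < t → Commute (x i) (x j)) : ∀ g ∈ H, x i * g = g * x i := fun g hg =>
  (commute_win hc (h.win_H.symm ▸ hg)).eq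

/-- Two successive central terms are impossible. -/
theorem PushUp.not_two_central (h : PushUp H P y n t x) {i : ℤ} (hi : 0 ≤ i) (hi' : i < t)
    (hc : ∀ j : ℤ, -1 ≤ j → j < t → Commute (x i) (x j))
    (hc' : ∀ j : ℤ, -1 ≤ j → j < t → Commute (x (i + 1)) (x j)) : False := by
  refine h.ne_one i (h.no_central _ (h.mem_P hi hi') (h.central hc) ?_)
  rw [h.conj_central i (h.central hc)]
  exact h.central hc'

theorem PushUp.card_win (h : PushUp H P y n t x) (a b : ℤ) (m : ℕ) (hm : m ≤ t) (e : b = a + m) :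
    Nat.card (win x a b) = 2 ^ m := e ▸ h.windowed.card a m hm

theorem PushUp.card_P (h : PushUp H P y n t x) : Nat.card P = 2 ^ t := by
  rw [← h.win_P]; exact h.card_win 0 t t le_rfl (by omega)

theorem PushUp.card_H (h : PushUp H P y n t x) : Nat.card H = 2 ^ t * n := by
  obtain ⟨f, hf, hk⟩ := h.dihedral
  have hle : win x 0 ((t : ℤ) - 1) ≤ H := h.win_H ▸ win_mono (by omega) (by omega)
  have h2 := h.two_le
  have hc := f.ker.card_mul_index
  rw [Subgroup.index_ker, f.range_eq_top.2 hf, Subgroup.card_top, DihedralGroup.nat_card, hk,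
    Nat.card_congr (Subgroup.subgroupOfEquivOfLe hle).toEquiv,
    h.card_win 0 (t - 1) (t - 1) (by omega) (by omega)] at hc
  obtain ⟨k, rfl⟩ : ∃ k, t = k + 1 := ⟨t - 1, by omega⟩
  rw [← hc, pow_succ, Nat.add_sub_cancel]
  ring

/-- `P` normalises both windows of index two. -/
theorem PushUp.P_le_normalizer (h : PushUp H P y n t x) :
    P ≤ Subgroup.normalizer (win x 0 ((t : ℤ) - 1) : Set G) ∧
      P ≤ Subgroup.normalizer (win x 1 t : Set G) := by
  have h2 := h.two_le
  constructor <;>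
  · refine le_normalizer_of_card_eq Nat.prime_two ?_ (a := t - 1) ?_ ?_
    · rw [← h.win_P]; exact win_mono (by omega) (by omega)
    · exact h.card_win _ _ _ (by omega) (by omega)
    · rw [h.card_P]; congr 1; omega

theorem PushUp.inf_win (h : PushUp H P y n t x) :
    win x 0 ((t : ℤ) - 1) ⊓ win x 1 t = win x 1 ((t : ℤ) - 1) := by
  have h2 := h.two_le
  set A := win x 0 ((t : ℤ) - 1)
  set B := win x 1 (t : ℤ)
  have cA : Nat.card A = 2 ^ (t - 1) := h.card_win _ _ _ (by omega) (by omega)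
  have cB : Nat.card B = 2 ^ (t - 1) := h.card_win _ _ _ (by omega) (by omega)
  have cR : Nat.card (win x 1 ((t : ℤ) - 1)) = 2 ^ (t - 2) := h.card_win _ _ _ (by omega) (by omega)
  refine (Subgroup.eq_of_le_of_card_ge (le_inf (win_mono (by omega) le_rfl)
    (win_mono le_rfl (by omega))) ?_).symm
  obtain ⟨b, hb, hbc⟩ := (Nat.dvd_prime_pow Nat.prime_two).1
    (cA ▸ Subgroup.card_dvd_of_le (inf_le_left (b := B)))
  rw [hbc, cR]
  refine Nat.pow_le_pow_right two_pos ?_
  by_contra hlt
  have hbt : b = t - 1 := by omega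
  rw [hbt] at hbc
  have e1 : A ⊓ B = A := Subgroup.eq_of_le_of_card_ge inf_le_left (by rw [hbc, cA])
  have e2 : A = B := Subgroup.eq_of_le_of_card_ge (inf_eq_left.1 e1) (by rw [cA, cB])
  have e3 : A ⊔ B = win x 0 (t : ℤ) := win_sup_win (by omega) (by omega) (by omega)
  rw [← e2, sup_idem, h.win_P] at e3
  rw [e3, h.card_P] at cA
  have := Nat.pow_right_injective le_rfl cA
  omega

/-- The middle window is not normal. -/
theorem PushUp.not_norm (h : PushUp H P y n t x) (ht : 3 ≤ t)
    (hv : x (-1) ∈ Subgroup.normalizer (win x 1 ((t : ℤ) - 1) : Set G)) : False := by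
  have hR := h.inf_win
  have hy : MulAut.conj y • win x 1 ((t : ℤ) - 1) = win x 1 ((t : ℤ) - 1) := by
    rw [← hR, Subgroup.smul_inf, h.conj_Q, h.conj_Q', inf_comm]
  have hle : win x 1 ((t : ℤ) - 1) ≤ P := h.win_P ▸ win_mono (by omega) (by omega)
  have hN : H ≤ Subgroup.normalizer (win x 1 ((t : ℤ) - 1) : Set G) := by
    rw [← h.win_H, win, Subgroup.closure_le]
    rintro _ ⟨i, ⟨hi, hi'⟩, rfl⟩
    rcases hi.eq_or_lt with rfl | hi0
    · exact hv
    · have := h.P_le_normalizer
      have hm := h.mem_P (show (0 : ℤ) ≤ i by omega) hi'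
      rw [← hR]
      exact mem_normalizer_inf (this.1 hm) (this.2 hm)
  have h0 := h.no_normal _ hle hN hy
  have := mem_win (x := x) (a := 1) (b := (t : ℤ) - 1) (i := 1) le_rfl (by omega)
  rw [h0, Subgroup.mem_bot] at this
  exact h.ne_one 1 this

theorem PushUp.commute (h : PushUp H P y n t x) {i j : ℤ} (h1 : 3 * (j - i) < 2 * t)
    (h2 : 3 * (i - j) < 2 * t) : Commute (x i) (x j) :=
  h.windowed.commute Nat.prime_two h1 h2

/-- `t = 6` is impossible. -/
theorem PushUp.ne_six (h : PushUp H P y n t x) : t ≠ 6 := by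
  rintro rfl
  obtain ⟨ψ, hψ⟩ := h.shift
  have hne : ¬ Commute (x 0) (x 4) := fun hc =>
    h.not_two_central (i := 2) (by omega) (by omega)
      (fun j _ _ => h.commute (by omega) (by omega))
      (fun j hj hj' => by
        rcases hj.eq_or_lt with rfl | hj0
        · have := h.windowed.shift 0 4 (-1) hc
          simpa using this.symm
        · exact h.commute (by omega) (by omega))
  apply h.not_norm (by norm_num)
  have hmin : ∀ i j : ℤ, i - (4 : ℕ) < j → j < i + (4 : ℕ) → Commute (x i) (x j) :=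
    fun i j _ _ => h.commute (by omega) (by omega)
  have hw : x 0 * x 4 * (x 0)⁻¹ * (x 4)⁻¹ ∈ win x 2 4 := by
    have h0 : x 0 * x 4 * (x 0)⁻¹ * (x 4)⁻¹ ∈ win x 1 4 := by
      simpa using h.windowed.comm 0 4 (by omega) (by omega)
    have := h.windowed.steps Nat.prime_two (s := 4) (by omega) hmin hne (b := 4) (by omega) 1
      (by omega) h0
    simpa using this
  have hw' : x (-1) * x 3 * (x (-1))⁻¹ * (x 3)⁻¹ ∈ win x 1 3 := by
    have := Subgroup.smul_mem_pointwise_smul _ (ψ ^ (-1 : ℤ)) _ hw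
    rw [smul_win hψ, MulAut.smul_def, map_mul, map_mul, map_mul, map_inv, map_inv, hψ, hψ] at this
    simpa using this
  refine mem_normalizer_win fun i hi hi' => ?_
  have hi5 : i ≤ 4 := by omega
  obtain rfl | rfl | rfl | rfl : i = 1 ∨ i = 2 ∨ i = 3 ∨ i = 4 := by omega
  · rw [(h.commute (i := -1) (j := 1) (by omega) (by omega)).eq, mul_inv_cancel_right]
    exact mem_win le_rfl (by omega)
  · rw [(h.commute (i := -1) (j := 2) (by omega) (by omega)).eq, mul_inv_cancel_right]
    exact mem_win (by omega) (by omega)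
  · have : x (-1) * x 3 * (x (-1))⁻¹ = x (-1) * x 3 * (x (-1))⁻¹ * (x 3)⁻¹ * x 3 := by group
    rw [this]
    exact mul_mem (win_mono le_rfl (by omega) hw') (mem_win (by omega) (by omega))
  · have hc : x (-1) * x 4 * (x (-1))⁻¹ * (x 4)⁻¹ ∈ win x 0 4 := by
      simpa using h.windowed.comm (-1) 4 (by omega) (by omega)
    rw [win_succ_left (by omega)] at hc
    have hn0 : Subgroup.zpowers (x 0) ≤ Subgroup.normalizer (win x (0 + 1) 4 : Set G) :=
      Subgroup.zpowers_le.2 (Subgroup.centralizer_le_normalizer _ (Subgroup.mem_centralizer_iff.2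
        fun r hr => (commute_win (fun j _ _ => h.commute (i := 0) (j := j) (by omega) (by omega)) hr).eq.symm))
    rw [← SetLike.mem_coe, Subgroup.coe_mul_of_left_le_normalizer_right _ _ hn0] at hc
    obtain ⟨z, hz, r, hr, hzr⟩ := hc
    change z * r = _ at hzr
    have e : x (-1) * x 4 * (x (-1))⁻¹ = z * r * x 4 := by rw [hzr]; group
    rcases eq_one_or_eq_of_mem_zpowers (h.sq 0) hz with rfl | rfl
    · rw [e, one_mul]
      exact mul_mem (win_mono (by omega) (by omega) hr) (mem_win (by omega) (by omega))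
    · exfalso
      have hr0 : Commute (x 0) r := commute_win (fun j _ _ => h.commute (by omega) (by omega)) hr
      have hr4 : Commute (x 4) r := commute_win (fun j _ _ => h.commute (by omega) (by omega)) hr
      have hr2 : r ^ 2 = 1 := sq_eq_one_of_commute (fun j _ _ => h.sq j)
        (fun j _ _ k _ _ => h.commute (by omega) (by omega)) hr
      have h1 : (x 0 * r * x 4) ^ 2 = 1 := by
        rw [← e, pow_two, show x (-1) * x 4 * (x (-1))⁻¹ * (x (-1) * x 4 * (x (-1))⁻¹) =
          x (-1) * (x 4 * x 4) * (x (-1))⁻¹ by group, ← pow_two, h.sq]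
        group
      have h2 : (x 0 * x 4) * (x 0 * x 4) = 1 := by
        calc (x 0 * x 4) * (x 0 * x 4) = r ^ 2 * ((x 0 * x 4) * (x 0 * x 4)) := by rw [hr2, one_mul]
          _ = (x 0 * r * x 4) ^ 2 := by
            rw [hr0.eq, mul_assoc r, (Commute.mul_right hr0.symm hr4.symm).mul_pow, pow_two (x 0 * x 4)]
          _ = 1 := h1
      apply hne
      have := eq_inv_of_mul_eq_one_left h2
      rwa [mul_inv_rev, h.inv_eq, h.inv_eq] at this

section Quotient

variable {K : Type*} [Group K] [Finite K]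

/-- The image of a normal subgroup `V` modulo a normal subgroup meeting it inside `Z`. -/
theorem centralizer_map_le {D : Type*} [Group D] (π : K →* D) (hπ : Function.Surjective π)
    (V L : Subgroup K) [V.Normal] (Z : Subgroup K) (hVZ : V ⊓ π.ker ≤ Z)
    (hL : ∀ g : K, (∀ v ∈ V, g * v * g⁻¹ * v⁻¹ ∈ Z) → g ∈ L) (hLV : L ≤ π.ker ⊔ V) :
    Subgroup.centralizer (V.map π : Set D) ≤ V.map π := by
  intro d hd
  obtain ⟨g, rfl⟩ := hπ d
  have hg : g ∈ L := hL g fun v hv => hVZ ⟨V.mul_mem (‹V.Normal›.conj_mem v hv g) (V.inv_mem hv), by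
    show π (g * v * g⁻¹ * v⁻¹) = 1
    rw [map_mul, map_mul, map_mul, map_inv, map_inv,
      ← Subgroup.mem_centralizer_iff.1 hd (π v) (Subgroup.mem_map_of_mem π hv)]
    group⟩
  have hmem := Subgroup.mem_map_of_mem π (hLV hg)
  rw [Subgroup.map_sup, (Subgroup.map_eq_bot_iff _).2 le_rfl, bot_sup_eq] at hmem
  exact hmem

end Quotient

theorem PushUp.case_two (h : PushUp H P y n t x) (ht : t = 2) :
    Nonempty (↥H ⧸ Cfsg.oddCore ↥H ≃* Multiplicative (ZMod 2) × Multiplicative (ZMod 2)) := by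
  subst ht
  obtain ⟨f, hf, hk⟩ := h.dihedral
  haveI : NeZero n := ⟨by have := h.three_le; omega⟩
  have hQH : win x 0 (((2 : ℕ) : ℤ) - 1) ≤ H := h.win_H ▸ win_mono (by omega) (by omega)
  have hkc : Nat.card f.ker = 2 ^ 1 := by
    rw [hk, Nat.card_congr (Subgroup.subgroupOfEquivOfLe hQH).toEquiv]
    exact h.card_win _ _ _ (by omega) (by omega)
  have hker : ∀ q ∈ f.ker, ∀ l : ↥H, q * l = l * q := by
    intro q hq l
    rw [hk, Subgroup.mem_subgroupOf] at hq
    refine Subtype.ext (commute_win (fun j _ _ => (commute_win (fun i _ _ => ?_) hq).symm)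
      (h.win_H.symm ▸ l.2 : (l : G) ∈ win x (-1) (2 : ℕ))).eq
    exact h.commute (by omega) (by omega)
  let Rot : Subgroup (DihedralGroup n) := Subgroup.zpowers (DihedralGroup.r 1)
  haveI hRn : Rot.Normal := ⟨fun a ha g => by
    obtain ⟨j, rfl⟩ := Subgroup.mem_zpowers_iff.1 ha
    rw [← conj_zpow]
    refine Subgroup.zpow_mem _ ?_ j
    rcases g with i | i
    · refine ⟨1, ?_⟩
      simp
    · refine ⟨-1, ?_⟩
      simp⟩
  have hRc : Nat.card Rot = n := by rw [Nat.card_zpowers, DihedralGroup.orderOf_r_one]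
  let L : Subgroup ↥H := Rot.comap f
  have hLmap : L.map f = Rot := Subgroup.map_comap_eq_self_of_surjective hf Rot
  have hkL : f.ker ≤ L := fun g hg => by
    show f g ∈ Rot
    rw [MonoidHom.mem_ker.1 hg]; exact Rot.one_mem
  have hLc : Nat.card L = 2 ^ 1 * n := by rw [card_eq_mul_of_ker_le f hkL, hkc, hLmap, hRc]
  obtain ⟨hOc, hOQ, -⟩ := card_oddCore f.ker L hkL hkc h.odd_n hLc
    (comm_of_kernel_central h.odd_n (f := f) (by rw [hLmap, hRc]; exact h.odd_n)
      fun q hq l _ => hker q hq.1 l)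
    fun N hN hNo g hg => by
      haveI := hN
      exact rotations_spec h.odd_n f N (hNo.of_dvd_nat (Subgroup.card_map_dvd N f))
        (Subgroup.mem_map_of_mem f hg)
  haveI := H19.pPrimeCore_normal 2 ↥H
  have hq : Nat.card (↥H ⧸ Cfsg.oddCore ↥H) = 4 := by
    have h1 := (Cfsg.oddCore ↥H).card_mul_index
    rw [hOc, h.card_H, Subgroup.index_eq_card] at h1
    have := h.odd_n.pos
    exact Nat.eq_of_mul_eq_mul_left this (h1.trans (by ring))
  refine nonempty_mulEquiv_four hq fun g => ?_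
  let π : ↥H →* ↥H ⧸ Cfsg.oddCore ↥H := QuotientGroup.mk' _
  have hP : P.subgroupOf H ⊓ π.ker = ⊥ := by
    rw [QuotientGroup.ker_mk']
    refine Subgroup.inf_eq_bot_of_coprime ?_
    rw [hOc, Nat.card_congr (Subgroup.subgroupOfEquivOfLe h.P_le_H).toEquiv, h.card_P]
    exact Nat.Coprime.pow_left _ (Nat.coprime_two_left.2 h.odd_n)
  have htop : (P.subgroupOf H).map π = ⊤ := by
    refine Subgroup.eq_top_of_card_eq _ ?_
    have := card_map_mul_card_inf_ker π (P.subgroupOf H)
    rw [hP, Subgroup.card_bot, mul_one,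
      Nat.card_congr (Subgroup.subgroupOfEquivOfLe h.P_le_H).toEquiv, h.card_P] at this
    rw [this, hq]; rfl
  obtain ⟨p, hp, rfl⟩ : g ∈ (P.subgroupOf H).map π := htop ▸ Subgroup.mem_top g
  rw [← map_pow]
  have : (p : G) ^ 2 = 1 := sq_eq_one_of_commute (fun i _ _ => h.sq i)
    (fun i _ _ j _ _ => h.commute (by omega) (by omega))
    (h.win_P.symm ▸ (Subgroup.mem_subgroupOf.1 hp) : (p : G) ∈ win x 0 (2 : ℕ))
  rw [show p ^ 2 = 1 from Subtype.ext this, map_one]

theorem PushUp.case_three (h : PushUp H P y n t x) (ht : t = 3) :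
    Nonempty (↥H ⧸ Cfsg.oddCore ↥H ≃* Equiv.Perm (Fin 4)) := by
  subst ht
  obtain ⟨f, hf, hk⟩ := h.dihedral
  have hne : ¬ Commute (x 0) (x 2) := fun hc =>
    h.not_two_central (i := 0) le_rfl (by omega)
      (fun j hj hj' => by
        rcases (show j = 2 ∨ j ≤ 1 by omega) with rfl | hj2
        · exact hc
        · exact h.commute (by omega) (by omega))
      (fun j hj hj' => by
        rcases hj.eq_or_lt with rfl | hj0
        · have := h.windowed.shift 0 2 (-1) hc
          simpa using this.symm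
        · exact h.commute (by omega) (by omega))
  have hQH : win x 0 (((3 : ℕ) : ℤ) - 1) ≤ H := h.win_H ▸ win_mono (by omega) (by omega)
  have hkc : Nat.card f.ker = 2 ^ 2 := by
    rw [hk, Nat.card_congr (Subgroup.subgroupOfEquivOfLe hQH).toEquiv]
    exact h.card_win _ _ _ (by omega) (by omega)
  have hcomm : ∀ a ∈ f.ker, ∀ b ∈ f.ker, a * b = b * a := by
    intro a ha b hb
    rw [hk, Subgroup.mem_subgroupOf] at ha hb
    exact Subtype.ext (commute_win_win (fun i _ _ j _ _ => h.commute (by omega) (by omega)) ha hb).eq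
  have hm : ∀ {i : ℤ}, 0 ≤ i → i ≤ 1 → ∀ hi : x i ∈ H, (⟨x i, hi⟩ : ↥H) ∈ f.ker := by
    intro i h0 h1 hi
    rw [hk, Subgroup.mem_subgroupOf]
    exact mem_win h0 (by omega)
  have x0H := h.mem_H (i := 0) (by omega) (by omega)
  have x1H := h.mem_H (i := 1) (by omega) (by omega)
  have x2H := h.mem_H (i := 2) (by omega) (by omega)
  have vH := h.mem_H (i := -1) le_rfl (by omega)
  have h6 := index_centralizer_four h.odd_n hf (by rw [hkc]; rfl) hcomm
    (u := ⟨x 2, x2H⟩) (w := ⟨x (-1), vH⟩) (a := ⟨x 0, x0H⟩) (Subtype.ext (h.sq 2))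
    (Subtype.ext (h.sq (-1))) (hm le_rfl (by omega) x0H)
    (fun e => hne (congrArg Subtype.val e).symm)
    (Subtype.ext (h.commute (i := -1) (j := 0) (by omega) (by omega)).eq)
    ⟨⟨x 1, x1H⟩, hm (by omega) le_rfl x1H, fun e => hne <| by
      have := h.windowed.shift (-1) 1 1 (congrArg Subtype.val e)
      simpa using this⟩
  set L := Subgroup.centralizer (f.ker : Set ↥H) with hLdef
  have hkL : f.ker ≤ L := fun q hq => Subgroup.mem_centralizer_iff.2 fun r hr => hcomm r hr q hq
  haveI : L.Normal := Subgroup.normal_centralizer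
  have hLc0 : Nat.card L = 2 ^ 2 * Nat.card (L.map f) := by rw [card_eq_mul_of_ker_le f hkL, hkc]
  have h3 : 3 * Nat.card (L.map f) = n := by
    have := L.card_mul_index
    rw [hLc0, h6, h.card_H] at this
    omega
  have hodd : Odd (Nat.card (L.map f)) := h.odd_n.of_dvd_nat ⟨3, by omega⟩
  haveI hkn : f.ker.Normal := inferInstance
  obtain ⟨hOc, hOQ, hLO⟩ := card_oddCore f.ker L hkL hkc hodd hLc0
    (comm_of_kernel_central h.odd_n (f := f) hodd fun q hq l hl =>
      Subgroup.mem_centralizer_iff.1 hl q hq.1)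
    fun N hN hNo g hg => Subgroup.mem_centralizer_iff.2 fun q hq =>
      (Subgroup.commute_of_normal_of_disjoint _ _ hkn hN (disjoint_iff.2
        (Subgroup.inf_eq_bot_of_coprime (by
          rw [hkc]; exact Nat.Coprime.pow_left _ (Nat.coprime_two_left.2 hNo)))) q g hq hg).eq
  haveI := H19.pPrimeCore_normal 2 ↥H
  let π : ↥H →* ↥H ⧸ Cfsg.oddCore ↥H := QuotientGroup.mk' _
  have hπ : Function.Surjective π := QuotientGroup.mk'_surjective _
  have hπk : π.ker = Cfsg.oddCore ↥H := QuotientGroup.ker_mk' _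
  haveI : (f.ker.map π).Normal := hkn.map π hπ
  refine nonempty_mulEquiv_perm_four ?_ (f.ker.map π) ?_ ?_
  · have h1 := (Cfsg.oddCore ↥H).card_mul_index
    rw [hOc, h.card_H, Subgroup.index_eq_card] at h1
    exact Nat.eq_of_mul_eq_mul_left hodd.pos (h1.trans (by rw [mul_comm _ n]; omega))
  · have := card_map_mul_card_inf_ker π f.ker
    rw [hπk, inf_comm, hOQ, Subgroup.card_bot, mul_one, hkc] at this
    rw [this]; rfl
  · refine centralizer_map_le π hπ f.ker L ⊥ (by rw [hπk, inf_comm, hOQ]) (fun g hg => ?_) (by rw [hπk]; exact hLO)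
    refine Subgroup.mem_centralizer_iff.2 fun v hv => ?_
    have := Subgroup.mem_bot.1 (hg v hv)
    rw [mul_inv_eq_one, mul_inv_eq_iff_eq_mul] at this
    exact this.symm

theorem PushUp.case_four (h : PushUp H P y n t x) (ht : t = 4) :
    Nonempty (↥H ⧸ Cfsg.oddCore ↥H ≃* Equiv.Perm (Fin 4) × Multiplicative (ZMod 2)) := by
  subst ht
  obtain ⟨f, hf, hk⟩ := h.dihedral
  have hne : ¬ Commute (x 0) (x 3) := fun hc =>
    h.not_two_central (i := 1) (by omega) (by omega)
      (fun j _ _ => h.commute (by omega) (by omega))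
      (fun j hj hj' => by
        rcases hj.eq_or_lt with rfl | hj0
        · have := h.windowed.shift 0 3 (-1) hc
          simpa using this.symm
        · exact h.commute (by omega) (by omega))
  have hQH : win x 0 (((4 : ℕ) : ℤ) - 1) ≤ H := h.win_H ▸ win_mono (by omega) (by omega)
  have hkc : Nat.card f.ker = 2 ^ 3 := by
    rw [hk, Nat.card_congr (Subgroup.subgroupOfEquivOfLe hQH).toEquiv]
    exact h.card_win _ _ _ (by omega) (by omega)
  have hcomm : ∀ a ∈ f.ker, ∀ b ∈ f.ker, a * b = b * a := by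
    intro a ha b hb
    rw [hk, Subgroup.mem_subgroupOf] at ha hb
    exact Subtype.ext (commute_win_win (fun i _ _ j _ _ => h.commute (by omega) (by omega)) ha hb).eq
  have xH : ∀ i : ℤ, -1 ≤ i → i < 4 → x i ∈ H := fun i a b => h.mem_H a (by omega)
  let X : ∀ i : ℤ, -1 ≤ i → i < 4 → ↥H := fun i a b => ⟨x i, xH i a b⟩
  set z : ↥H := X 1 (by omega) (by omega) with hzdef
  have hzc : ∀ g : ↥H, z * g = g * z := fun g =>
    Subtype.ext (h.central (fun j _ _ => h.commute (by omega) (by omega)) g g.2)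
  let Z : Subgroup ↥H := Subgroup.zpowers z
  haveI hZn : Z.Normal := ⟨fun a ha g => by
    obtain ⟨j, rfl⟩ := Subgroup.mem_zpowers_iff.1 ha
    rw [← conj_zpow, ← hzc g, mul_inv_cancel_right]
    exact Subgroup.zpow_mem _ (Subgroup.mem_zpowers z) j⟩
  have hZc : Nat.card Z = 2 := by
    rw [Nat.card_zpowers]
    exact orderOf_eq_prime (Subtype.ext (h.sq 1)) fun e => h.ne_one 1 (congrArg Subtype.val e)
  have hzk : z ∈ f.ker := by
    rw [hk, Subgroup.mem_subgroupOf]; exact mem_win (by omega) (by omega)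
  have hZk : Z ≤ f.ker := Subgroup.zpowers_le.2 hzk
  let f₁ : ↥H ⧸ Z →* DihedralGroup n := QuotientGroup.lift Z f hZk
  let π₁ : ↥H →* ↥H ⧸ Z := QuotientGroup.mk' Z
  have hπ₁ : Function.Surjective π₁ := QuotientGroup.mk'_surjective Z
  have hf₁ : Function.Surjective f₁ := fun d => by
    obtain ⟨g, hg⟩ := hf d
    exact ⟨π₁ g, hg⟩
  have hk₁ : f₁.ker = f.ker.map π₁ := by
    refine le_antisymm (fun q hq => ?_) ?_
    · obtain ⟨g, rfl⟩ := hπ₁ q
      exact Subgroup.mem_map_of_mem π₁ hq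
    · rintro _ ⟨g, hg, rfl⟩; exact hg
  have hk₁c : Nat.card f₁.ker = 4 := by
    have := card_map_mul_card_inf_ker π₁ f.ker
    rw [QuotientGroup.ker_mk', inf_eq_right.2 hZk, hkc, ← hk₁, hZc] at this
    omega
  have hcomm₁ : ∀ a ∈ f₁.ker, ∀ b ∈ f₁.ker, a * b = b * a := by
    rw [hk₁]
    rintro _ ⟨a, ha, rfl⟩ _ ⟨b, hb, rfl⟩
    rw [← map_mul, ← map_mul, hcomm a ha b hb]
  have hone : ∀ g : ↥H, g ∈ Z → (g : G) ∈ win x 1 2 := by
    intro g hg
    obtain ⟨j, rfl⟩ := Subgroup.mem_zpowers_iff.1 hg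
    exact (win x 1 2).zpow_mem (mem_win le_rfl (by omega)) j
  -- neither `x 3` nor `x (-1)` acts trivially on `ker f / Z`
  have hnt : ∀ (i : ℤ) (hi : -1 ≤ i) (hi' : i < 4), (i = -1 ∨ i = 3) →
      ¬ ∀ q ∈ f₁.ker, π₁ (X i hi hi') * q = q * π₁ (X i hi hi') := by
    intro i hi hi' hic hcon
    haveI : (Subgroup.centralizer (f₁.ker : Set (↥H ⧸ Z))).Normal := Subgroup.normal_centralizer
    have hnotin : π₁ (X i hi hi') ∉ f₁.ker := by
      intro hmem
      have hx : X i hi hi' ∈ f.ker := hmem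
      rw [hk, Subgroup.mem_subgroupOf] at hx
      rcases hic with rfl | rfl
      · -- then `H = P`
        have hHP : H ≤ P := by
          rw [← h.win_H, win, Subgroup.closure_le]
          rintro _ ⟨j, ⟨hj, hj'⟩, rfl⟩
          rcases hj.eq_or_lt with rfl | hj0
          · exact h.win_P ▸ win_mono le_rfl (by omega) hx
          · exact h.mem_P (by omega) hj'
        have := Nat.le_of_dvd Nat.card_pos (Subgroup.card_dvd_of_le hHP)
        rw [h.card_P, h.card_H] at this
        have := h.three_le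
        omega
      · have e : win x 0 ((4 : ℕ) : ℤ) ≤ win x 0 (((4 : ℕ) : ℤ) - 1) := by
          rw [win, Subgroup.closure_le]
          rintro _ ⟨j, ⟨hj, hj'⟩, rfl⟩
          rcases (show j = 3 ∨ j < 3 by omega) with rfl | hj3
          · exact hx
          · exact mem_win hj (by omega)
        have := Nat.le_of_dvd Nat.card_pos (Subgroup.card_dvd_of_le e)
        rw [h.card_win 0 _ 4 le_rfl (by omega), h.card_win 0 _ 3 (by omega) (by omega)] at this
        omega
    have htop := normal_eq_top h.odd_n hf₁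
      (N := Subgroup.centralizer (f₁.ker : Set (↥H ⧸ Z)))
      (fun q hq => Subgroup.mem_centralizer_iff.2 fun r hr => hcomm₁ r hr q hq)
      (Subgroup.mem_centralizer_iff.2 fun q hq => (hcon q hq).symm)
      (by rw [← map_pow, show X i hi hi' ^ 2 = 1 from Subtype.ext (h.sq i), map_one]) hnotin
    refine h.not_norm (by norm_num) (mem_normalizer_win fun j hj hj' => ?_)
    have hv := xH (-1) le_rfl (by omega)
    have hj4 : j < 4 := by omega
    have hmem : π₁ (X j (by omega) hj4) ∈ f₁.ker := by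
      rw [hk₁]
      refine Subgroup.mem_map_of_mem π₁ ?_
      rw [hk, Subgroup.mem_subgroupOf]
      exact mem_win (by omega) (by omega)
    have hc := Subgroup.mem_centralizer_iff.1
      (htop ▸ Subgroup.mem_top (π₁ (X (-1) le_rfl (by omega)))) _ hmem
    have hZmem : X (-1) le_rfl (by omega) * X j (by omega) hj4 * (X (-1) le_rfl (by omega))⁻¹ *
        (X j (by omega) hj4)⁻¹ ∈ Z := by
      rw [← QuotientGroup.ker_mk' Z, MonoidHom.mem_ker]
      show π₁ _ = 1
      rw [map_mul, map_mul, map_mul, map_inv, map_inv, ← hc]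
      group
    have e : x (-1) * x j * (x (-1))⁻¹ = x (-1) * x j * (x (-1))⁻¹ * (x j)⁻¹ * x j := by group
    rw [e]
    exact mul_mem (win_mono le_rfl (by omega) (hone _ hZmem)) (mem_win hj hj')
  set u := π₁ (X 3 (by omega) (by omega)) with hu
  set a := π₁ (X 0 (by omega) (by omega)) with ha'
  set v := π₁ (X (-1) le_rfl (by omega)) with hv'
  have hak : a ∈ f₁.ker := by
    rw [hk₁]
    refine Subgroup.mem_map_of_mem π₁ ?_
    rw [hk, Subgroup.mem_subgroupOf]; exact mem_win le_rfl (by omega)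
  have hker3 : f.ker ≤ Subgroup.closure {X 0 (by omega) (by omega), X 1 (by omega) (by omega),
      X 2 (by omega) (by omega)} := by
    intro q hq
    rw [hk, Subgroup.mem_subgroupOf] at hq
    have hle : win x 0 (((4 : ℕ) : ℤ) - 1) ≤ (Subgroup.closure ({X 0 (by omega) (by omega),
        X 1 (by omega) (by omega), X 2 (by omega) (by omega)} : Set ↥H)).map H.subtype := by
      rw [win, Subgroup.closure_le]
      rintro _ ⟨j, ⟨hj, hj'⟩, rfl⟩
      refine ⟨X j (by omega) (by omega), Subgroup.subset_closure ?_, rfl⟩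
      obtain rfl | rfl | rfl : j = 0 ∨ j = 1 ∨ j = 2 := by omega
      all_goals simp
    obtain ⟨q', hq', e⟩ := hle hq
    exact (Subtype.ext e : q' = q) ▸ hq'
  have hua : u * a ≠ a * u := by
    intro e
    apply hnt 3 (by omega) (by omega) (Or.inr rfl)
    rw [hk₁]
    rintro _ ⟨q, hq, rfl⟩
    have hle : f.ker ≤ (Subgroup.centralizer {u}).comap π₁ := by
      refine hker3.trans ((Subgroup.closure_le _).2 ?_)
      intro g hg
      simp only [Set.mem_insert_iff, Set.mem_singleton_iff] at hg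
      show π₁ g ∈ Subgroup.centralizer {u}
      rw [Subgroup.mem_centralizer_singleton_iff]
      rcases hg with rfl | rfl | rfl
      · exact e.symm
      · rw [hu, ← map_mul, ← map_mul]
        exact congrArg π₁ (hzc _)
      · rw [hu, ← map_mul, ← map_mul]
        exact congrArg π₁ (Subtype.ext (h.commute (i := 2) (j := 3) (by omega) (by omega)).eq)
    exact (Subgroup.mem_centralizer_singleton_iff.1 (hle hq)).symm
  have hwV : ∃ b ∈ f₁.ker, v * b ≠ b * v := by
    by_contra hcon
    push Not at hcon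
    exact hnt (-1) le_rfl (by omega) (Or.inl rfl) hcon
  have h6 := index_centralizer_four h.odd_n hf₁ hk₁c hcomm₁ (u := u) (w := v) (a := a)
    (by rw [hu, ← map_pow, show X 3 (by omega) (by omega) ^ 2 = 1 from Subtype.ext (h.sq 3), map_one])
    (by rw [hv', ← map_pow, show X (-1) le_rfl (by omega) ^ 2 = 1 from Subtype.ext (h.sq (-1)), map_one])
    hak hua
    (by rw [hv', ha', ← map_mul, ← map_mul]
        exact congrArg π₁ (Subtype.ext (h.commute (i := -1) (j := 0) (by omega) (by omega)).eq))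
    hwV
  set C := Subgroup.centralizer (f₁.ker : Set (↥H ⧸ Z))
  haveI : C.Normal := Subgroup.normal_centralizer
  let L : Subgroup ↥H := C.comap π₁
  haveI : L.Normal := inferInstanceAs (C.comap π₁).Normal
  have hkL : f.ker ≤ L := fun q hq => Subgroup.mem_centralizer_iff.2 fun r hr =>
    hcomm₁ r hr _ (hk₁ ▸ Subgroup.mem_map_of_mem π₁ hq)
  have hLc0 : Nat.card L = 2 ^ 3 * Nat.card (L.map f) := by rw [card_eq_mul_of_ker_le f hkL, hkc]
  have h3 : 3 * Nat.card (L.map f) = n := by
    have h1 := L.card_mul_index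
    rw [show L.index = C.index from Subgroup.index_comap_of_surjective C hπ₁, h6, hLc0, h.card_H] at h1
    omega
  have hodd : Odd (Nat.card (L.map f)) := h.odd_n.of_dvd_nat ⟨3, by omega⟩
  -- `L` centralises the kernel
  have hLc : ∀ q ∈ f.ker, ∀ l ∈ L, q * l = l * q := by
    intro q hq l hl
    set ζ := l * q * l⁻¹ * q⁻¹ with hζ
    have hζZ : ζ ∈ Z := by
      rw [← QuotientGroup.ker_mk' Z, MonoidHom.mem_ker]
      show π₁ ζ = 1
      have := Subgroup.mem_centralizer_iff.1 hl _ (hk₁ ▸ Subgroup.mem_map_of_mem π₁ hq)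
      rw [hζ, map_mul, map_mul, map_mul, map_inv, map_inv, ← this]
      group
    have hζc : ∀ g : ↥H, Commute ζ g := fun g => by
      obtain ⟨j, hj⟩ := Subgroup.mem_zpowers_iff.1 hζZ
      rw [← hj]; exact (show Commute z g from hzc g).zpow_left j
    have hpow : ∀ j : ℕ, l ^ j * q * (l ^ j)⁻¹ = ζ ^ j * q := by
      intro j
      induction j with
      | zero => simp
      | succ j ih =>
        rw [pow_succ', mul_inv_rev]
        calc l * l ^ j * q * ((l ^ j)⁻¹ * l⁻¹) = l * (l ^ j * q * (l ^ j)⁻¹) * l⁻¹ := by group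
          _ = ζ ^ j * (ζ * q) := by
            rw [ih, ← mul_assoc l, ((hζc l).pow_left j).eq.symm, hζ]; group
          _ = _ := by rw [← mul_assoc, ← pow_succ]
    set k := Nat.card (L.map f)
    have hlk : l ^ k ∈ f.ker := by
      rw [MonoidHom.mem_ker, map_pow]
      exact orderOf_dvd_iff_pow_eq_one.1
        (Subgroup.orderOf_dvd_natCard _ (Subgroup.mem_map_of_mem f hl))
    have hk1 := hpow k
    rw [hcomm _ hlk q hq, mul_inv_cancel_right] at hk1
    have hζk : ζ ^ k = 1 := by simpa using hk1.symm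
    have hζ2 : ζ ^ 2 = 1 := by
      have := orderOf_dvd_iff_pow_eq_one.1 (hZc ▸ Subgroup.orderOf_dvd_natCard Z hζZ)
      exact this
    have hζ1 : ζ = 1 := orderOf_eq_one_iff.1 (Nat.eq_one_of_dvd_coprimes
      (Nat.coprime_two_left.2 hodd) (orderOf_dvd_of_pow_eq_one hζ2) (orderOf_dvd_of_pow_eq_one hζk))
    rw [hζ, mul_inv_eq_one, mul_inv_eq_iff_eq_mul] at hζ1
    exact hζ1.symm
  haveI hkn : f.ker.Normal := inferInstance
  obtain ⟨hOc, hOQ, hLO⟩ := card_oddCore f.ker L hkL hkc hodd hLc0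
    (comm_of_kernel_central h.odd_n (f := f) hodd fun q hq l hl => hLc q hq.1 l hl)
    fun N hN hNo g hg => Subgroup.mem_centralizer_iff.2 <| by
      rw [hk₁]
      rintro _ ⟨q, hq, rfl⟩
      rw [← map_mul, ← map_mul]
      exact congrArg π₁ (Subgroup.commute_of_normal_of_disjoint _ _ hkn hN (disjoint_iff.2
        (Subgroup.inf_eq_bot_of_coprime (by
          rw [hkc]; exact Nat.Coprime.pow_left _ (Nat.coprime_two_left.2 hNo)))) q g hq hg).eq
  haveI := H19.pPrimeCore_normal 2 ↥H
  let π : ↥H →* ↥H ⧸ Cfsg.oddCore ↥H := QuotientGroup.mk' _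
  have hπ : Function.Surjective π := QuotientGroup.mk'_surjective _
  have hπk : π.ker = Cfsg.oddCore ↥H := QuotientGroup.ker_mk' _
  have hcardq : Nat.card (↥H ⧸ Cfsg.oddCore ↥H) = 48 := by
    have h1 := (Cfsg.oddCore ↥H).card_mul_index
    rw [hOc, h.card_H, Subgroup.index_eq_card] at h1
    exact Nat.eq_of_mul_eq_mul_left hodd.pos (h1.trans (by rw [mul_comm _ n]; omega))
  have hinj : ∀ S : Subgroup ↥H, IsPGroup 2 S → Nat.card (S.map π) = Nat.card S := by
    intro S hS
    have := card_map_mul_card_inf_ker π S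
    rwa [Subgroup.inf_eq_bot_of_coprime (by
      obtain ⟨j, hj⟩ := IsPGroup.iff_card.1 hS
      rw [hπk, hOc, hj]
      exact Nat.Coprime.pow_left _ (Nat.coprime_two_left.2 hodd)), Subgroup.card_bot, mul_one] at this
  let Zh : Subgroup (↥H ⧸ Cfsg.oddCore ↥H) := Z.map π
  haveI : Zh.Normal := hZn.map π hπ
  have hZhc : Nat.card Zh = 2 := by
    show Nat.card (Z.map π) = 2
    rw [hinj Z (IsPGroup.of_card (n := 1) (by rw [hZc]; rfl)), hZc]
  -- the quotient by `Zh`
  let π₂ : ↥H →* (↥H ⧸ Cfsg.oddCore ↥H) ⧸ Zh := (QuotientGroup.mk' Zh).comp π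
  have hπ₂ : Function.Surjective π₂ := (QuotientGroup.mk'_surjective Zh).comp hπ
  have hk₂ : π₂.ker = Z ⊔ Cfsg.oddCore ↥H := by
    have e1 : π₂.ker = Zh.comap π := by
      show ((QuotientGroup.mk' Zh).comp π).ker = _
      rw [← MonoidHom.comap_ker, QuotientGroup.ker_mk']
    exact e1.trans ((Subgroup.comap_map_eq π Z).trans (congrArg (Z ⊔ ·) hπk))
  have hQk₂ : f.ker ⊓ π₂.ker = Z := by
    refine le_antisymm ?_ (le_inf hZk (hk₂ ▸ le_sup_left))
    rintro q ⟨hq, hq'⟩
    have hq'' : q ∈ Z ⊔ Cfsg.oddCore ↥H := hk₂ ▸ hq'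
    rw [← SetLike.mem_coe, Subgroup.normal_mul] at hq''
    obtain ⟨ζ, hζ, o, ho, rfl⟩ := hq''
    have ho' : o ∈ Cfsg.oddCore ↥H ⊓ f.ker :=
      ⟨ho, (Subgroup.mul_mem_cancel_left _ (hZk hζ)).1 hq⟩
    rw [hOQ, Subgroup.mem_bot] at ho'
    simpa [ho'] using hζ
  have hS4 : Nonempty ((↥H ⧸ Cfsg.oddCore ↥H) ⧸ Zh ≃* Equiv.Perm (Fin 4)) := by
    haveI : (f.ker.map π₂).Normal := hkn.map π₂ hπ₂
    refine nonempty_mulEquiv_perm_four ?_ (f.ker.map π₂) ?_ ?_
    · have := Zh.card_mul_index
      rw [hZhc, hcardq, Subgroup.index_eq_card] at this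
      omega
    · have := card_map_mul_card_inf_ker π₂ f.ker
      rw [hQk₂, hZc, hkc] at this
      omega
    · refine centralizer_map_le π₂ hπ₂ f.ker L Z hQk₂.le (fun g hg => ?_) ?_
      · refine Subgroup.mem_centralizer_iff.2 ?_
        rw [hk₁]
        rintro _ ⟨q, hq, rfl⟩
        have h1 : π₁ (g * q * g⁻¹ * q⁻¹) = 1 := (QuotientGroup.eq_one_iff _).2 (hg q hq)
        rw [map_mul, map_mul, map_mul, map_inv, map_inv, mul_inv_eq_one, mul_inv_eq_iff_eq_mul] at h1
        exact h1.symm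
      · exact hLO.trans (sup_le_sup_right (hk₂ ▸ le_sup_right) _)
  -- a complement to `Zh`
  set w := x 0 * x 3 * (x 0)⁻¹ * (x 3)⁻¹ with hwdef
  have hw : w ∈ win x 1 3 := by simpa using h.windowed.comm 0 3 (by omega) (by omega)
  have hw2 : w ^ 2 = 1 := sq_eq_one_of_commute (fun i _ _ => h.sq i)
    (fun i _ _ j _ _ => h.commute (by omega) (by omega)) hw
  have hw3 : Commute w (x 3) :=
    (commute_win (fun i _ _ => h.commute (i := 3) (j := i) (by omega) (by omega)) hw).symm
  have hw0 : Commute (x 0) w := commute_win (fun i _ _ => h.commute (by omega) (by omega)) hw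
  let B : Subgroup G := Subgroup.zpowers w ⊔ Subgroup.zpowers (x 3)
  let A₀ : Subgroup G := Subgroup.zpowers (x 0) ⊔ B
  have hB : Nat.card B ≤ 4 := by
    refine (card_sup_le (Subgroup.zpowers_le.2 (Subgroup.centralizer_le_normalizer _
      (Subgroup.mem_centralizer_iff.2 ?_)))).trans ?_
    · intro g hg
      obtain ⟨j, rfl⟩ := Subgroup.mem_zpowers_iff.1 hg
      exact (hw3.zpow_right j).eq.symm
    · rw [Nat.card_zpowers, Nat.card_zpowers]
      exact Nat.mul_le_mul (Nat.le_of_dvd two_pos (orderOf_dvd_of_pow_eq_one hw2))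
        (Nat.le_of_dvd two_pos (orderOf_dvd_of_pow_eq_one (h.sq 3)))
  have hA : Nat.card A₀ ≤ 8 := by
    have hnorm : MulAut.conj (x 0) • B ≤ B := by
      show MulAut.conj (x 0) • (Subgroup.zpowers w ⊔ Subgroup.zpowers (x 3)) ≤ B
      rw [Subgroup.zpowers_eq_closure, Subgroup.zpowers_eq_closure, ← Subgroup.closure_union,
        Subgroup.smul_closure, Subgroup.closure_le]
      rintro _ ⟨g, hg, rfl⟩
      simp only [Set.mem_union, Set.mem_singleton_iff] at hg
      rcases hg with rfl | rfl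
      · show x 0 * w * (x 0)⁻¹ ∈ B
        rw [hw0.eq, mul_inv_cancel_right]
        exact Subgroup.mem_sup_left (Subgroup.mem_zpowers w)
      · show x 0 * x 3 * (x 0)⁻¹ ∈ B
        rw [show x 0 * x 3 * (x 0)⁻¹ = w * x 3 by rw [hwdef]; group]
        exact Subgroup.mul_mem_sup (Subgroup.mem_zpowers w) (Subgroup.mem_zpowers _)
    have he : MulAut.conj (x 0) • B = B :=
      Subgroup.eq_of_le_of_card_ge hnorm (card_smul_subgroup _ _).ge
    refine (card_sup_le (Subgroup.zpowers_le.2 (Subgroup.mem_normalizer_iff.2 fun g => ?_))).trans ?_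
    · have := Subgroup.smul_mem_pointwise_smul_iff (a := MulAut.conj (x 0)) (S := B) (x := g)
      rw [he] at this
      exact this.symm
    · rw [Nat.card_zpowers]
      exact Nat.mul_le_mul (Nat.le_of_dvd two_pos (orderOf_dvd_of_pow_eq_one (h.sq 0))) hB
  have hA0P : A₀ ≤ P :=
    sup_le (Subgroup.zpowers_le.2 (h.mem_P le_rfl (by omega)))
      (sup_le (Subgroup.zpowers_le.2 (h.win_P ▸ win_mono (by omega) (by omega) hw))
        (Subgroup.zpowers_le.2 (h.mem_P (by omega) (by omega))))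
  have hx1A : P ≤ A₀ ⊔ Subgroup.zpowers (x 1) := by
    rw [← h.win_P, win, Subgroup.closure_le]
    rintro _ ⟨j, ⟨hj, hj'⟩, rfl⟩
    obtain rfl | rfl | rfl | rfl : j = 0 ∨ j = 1 ∨ j = 2 ∨ j = 3 := by omega
    · exact Subgroup.mem_sup_left (Subgroup.mem_sup_left (Subgroup.mem_zpowers _))
    · exact Subgroup.mem_sup_right (Subgroup.mem_zpowers _)
    · have hw' := hw
      rw [win_succ_left (by omega), show (1 : ℤ) + 1 = 2 from rfl, win_succ_left (by omega),
        win_empty (by omega), sup_bot_eq] at hw'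
      have hn' : Subgroup.zpowers (x 1) ≤ Subgroup.normalizer (Subgroup.zpowers (x 2) : Set G) :=
        Subgroup.zpowers_le.2 (Subgroup.centralizer_le_normalizer _ (Subgroup.mem_centralizer_iff.2
          fun r hr => by
            obtain ⟨i, rfl⟩ := Subgroup.mem_zpowers_iff.1 hr
            exact ((h.commute (i := 2) (j := 1) (by omega) (by omega)).zpow_left i).eq))
      rw [← SetLike.mem_coe, Subgroup.coe_mul_of_left_le_normalizer_right _ _ hn'] at hw'
      obtain ⟨a', ha1, r, hr, har⟩ := hw'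
      change a' * r = w at har
      rcases eq_one_or_eq_of_mem_zpowers (h.sq 2) hr with rfl | rfl
      · -- `w` would be central
        exfalso
        apply hua
        rw [hu, ha', ← map_mul, ← map_mul]
        refine (QuotientGroup.eq).2 ?_
        rw [mul_one] at har
        obtain ⟨i, hi⟩ := Subgroup.mem_zpowers_iff.1 ha1
        have e : (z ^ i : ↥H) = X 0 (by omega) (by omega) * X 3 (by omega) (by omega) *
            (X 0 (by omega) (by omega))⁻¹ * (X 3 (by omega) (by omega))⁻¹ := by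
          refine Subtype.ext ?_
          show ((z ^ i : ↥H) : G) = w
          rw [SubgroupClass.coe_zpow, ← har, ← hi]
        have : (X 3 (by omega) (by omega) * X 0 (by omega) (by omega))⁻¹ *
            (X 0 (by omega) (by omega) * X 3 (by omega) (by omega)) ∈ Z := by
          have hcj := hZn.conj_mem _ (Subgroup.zpow_mem _ (Subgroup.mem_zpowers z) i)
            (X 3 (by omega) (by omega) * X 0 (by omega) (by omega))⁻¹
          rw [e] at hcj
          simpa [mul_assoc] using hcj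
        exact this
      · have : x 2 = a'⁻¹ * w := by rw [← har, inv_mul_cancel_left]
        rw [this]
        exact mul_mem (Subgroup.mem_sup_right (inv_mem ha1))
          (Subgroup.mem_sup_left (Subgroup.mem_sup_right (Subgroup.mem_sup_left (Subgroup.mem_zpowers w))))
    · exact Subgroup.mem_sup_left (Subgroup.mem_sup_right (Subgroup.mem_sup_right (Subgroup.mem_zpowers _)))
  have hPp : IsPGroup 2 (P.subgroupOf H) := IsPGroup.of_card
    (by rw [Nat.card_congr (Subgroup.subgroupOfEquivOfLe h.P_le_H).toEquiv, h.card_P])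
  let U : Subgroup (↥H ⧸ Cfsg.oddCore ↥H) := (P.subgroupOf H).map π
  let A : Subgroup (↥H ⧸ Cfsg.oddCore ↥H) := (A₀.subgroupOf H).map π
  have hUc : Nat.card U = 16 := by
    show Nat.card ((P.subgroupOf H).map π) = 16
    rw [hinj _ hPp, Nat.card_congr (Subgroup.subgroupOfEquivOfLe h.P_le_H).toEquiv, h.card_P]
    rfl
  have hAc : Nat.card A ≤ 8 :=
    (Nat.le_of_dvd Nat.card_pos (Subgroup.card_map_dvd _ π)).trans
      (by rw [Nat.card_congr (Subgroup.subgroupOfEquivOfLe (hA0P.trans h.P_le_H)).toEquiv]; exact hA)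
  have hZhU : Zh ≤ U := Subgroup.map_mono (Subgroup.zpowers_le.2 (h.mem_P (by omega) (by omega) : (z : G) ∈ P))
  have hsup : Zh ⊔ A = U := by
    refine le_antisymm (sup_le hZhU (Subgroup.map_mono (Subgroup.comap_mono hA0P))) ?_
    show (P.subgroupOf H).map π ≤ Z.map π ⊔ (A₀.subgroupOf H).map π
    rw [← Subgroup.map_sup]
    refine Subgroup.map_mono ?_
    have e : Z ⊔ A₀.subgroupOf H = (A₀ ⊔ Subgroup.zpowers (x 1)).subgroupOf H := by
      rw [Subgroup.subgroupOf_sup (hA0P.trans h.P_le_H) (Subgroup.zpowers_le.2 (xH 1 (by omega) (by omega))),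
        sup_comm]
      congr 1
      refine Subgroup.map_injective H.subtype_injective ?_
      rw [MonoidHom.map_zpowers, Subgroup.subgroupOf_map_subtype,
        inf_eq_left.2 (Subgroup.zpowers_le.2 (xH 1 (by omega) (by omega)))]
      rfl
    rw [e]
    exact Subgroup.comap_mono hx1A
  have hint : A ⊓ Zh = ⊥ := by
    refine Subgroup.card_eq_one.1 ?_
    have h1 := H32.card_sup_mul_card_inf A Zh
    rw [sup_comm, hsup, hUc, hZhc] at h1
    have h2 : 0 < Nat.card ↥(A ⊓ Zh) := Nat.card_pos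
    omega
  haveI : IsMulCommutative Zh := by
    haveI : IsCyclic Zh := isCyclic_of_prime_card (p := 2) hZhc
    infer_instance
  obtain ⟨U', hU'⟩ := H19.gaschutz_exists (K := Zh) hZhU (by
    have := U.card_mul_index
    rw [hUc, hcardq] at this
    rw [hZhc, show U.index = 3 by omega]
    decide) hint hsup
  exact nonempty_mulEquiv_prod Zh U' hZhc hU' hS4

/-- The conclusion of the pushing up theorem. -/
theorem PushUp.conclusion (h : PushUp H P y n t x) :
    (Nat.card P = 4 ∨ Nat.card P = 8 ∨ Nat.card P = 16) ∧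
    (Nonempty (↥H ⧸ Cfsg.oddCore ↥H ≃* Multiplicative (ZMod 2) × Multiplicative (ZMod 2)) ∨
     Nonempty (↥H ⧸ Cfsg.oddCore ↥H ≃* Equiv.Perm (Fin 4)) ∨
     Nonempty (↥H ⧸ Cfsg.oddCore ↥H ≃* Equiv.Perm (Fin 4) × Multiplicative (ZMod 2))) := by
  have h2 := h.two_le
  have h6 := h.le_six
  have h5 := h.ne_five
  have h6' := h.ne_six
  have hP := h.card_P
  obtain ht | ht | ht : t = 2 ∨ t = 3 ∨ t = 4 := by omega
  · refine ⟨Or.inl ?_, Or.inl (h.case_two ht)⟩
    rw [hP, ht]; rfl
  · refine ⟨Or.inr (Or.inl ?_), Or.inr (Or.inl (h.case_three ht))⟩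
    rw [hP, ht]; rfl
  · refine ⟨Or.inr (Or.inr ?_), Or.inr (Or.inr (h.case_four ht))⟩
    rw [hP, ht]; rfl

end Cfsg.Agent.H91.Sims
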