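import Cfsg.Agent.H91.Sims.Setup

/-!
Tools for the end of the pushing up argument: small windows, the odd core, the action on a four-group.
-/

open scoped Pointwise

namespace Cfsg.Agent.H91.Sims

variable {G : Type*} [Group G]

/-- Sims' inequality: terms at distance `d` with `3 * d < 2 * t` commute. -/
theorem Windowed.commute_of_lt {p t : ℕ} {x : ℤ → G} (h : Windowed p t x) (hp : p.Prime) (d : ℕ) :
    3 * d < 2 * t → Commute (x 0) (x d) := by
  induction d using Nat.strong_induction_on with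
  | _ d ih =>
  intro hd
  rcases Nat.eq_zero_or_pos d with rfl | hd0
  · exact Commute.refl _
  by_contra hne
  have hmin : ∀ i j : ℤ, i - d < j → j < i + d → Commute (x i) (x j) := by
    intro i j hi hj
    rcases le_total i j with hij | hij
    · have := h.shift 0 (j - i).toNat i (ih _ (by omega) (by omega))
      rwa [zero_add, show ((j - i).toNat : ℤ) + i = j by omega] at this
    · have := h.shift 0 (i - j).toNat j (ih _ (by omega) (by omega))
      rw [zero_add, show ((i - j).toNat : ℤ) + j = i by omega] at this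
      exact this.symm
  have := h.two_mul_le hp hd0 (by omega) hmin hne
  omega

theorem Windowed.commute {p t : ℕ} {x : ℤ → G} (h : Windowed p t x) (hp : p.Prime) {i j : ℤ}
    (h1 : 3 * (j - i) < 2 * t) (h2 : 3 * (i - j) < 2 * t) : Commute (x i) (x j) := by
  rcases le_total i j with hij | hij
  · have := h.shift 0 (j - i).toNat i (h.commute_of_lt hp _ (by omega))
    rwa [zero_add, show ((j - i).toNat : ℤ) + i = j by omega] at this
  · have := h.shift 0 (i - j).toNat j (h.commute_of_lt hp _ (by omega))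
    rw [zero_add, show ((i - j).toNat : ℤ) + j = i by omega] at this
    exact this.symm

/-- Elements of a window of pairwise commuting involutions square to one. -/
theorem sq_eq_one_of_commute {x : ℤ → G} {a b : ℤ} (h1 : ∀ i, a ≤ i → i < b → x i ^ 2 = 1)
    (hc : ∀ i, a ≤ i → i < b → ∀ j, a ≤ j → j < b → Commute (x i) (x j)) {g : G}
    (hg : g ∈ win x a b) : g ^ 2 = 1 := by
  unfold win at hg
  induction hg using Subgroup.closure_induction with
  | mem u hu => obtain ⟨i, ⟨hi, hi'⟩, rfl⟩ := hu; exact h1 i hi hi'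
  | one => exact one_pow 2
  | mul u v hu hv ihu ihv =>
    rw [(commute_win_win hc hu hv).mul_pow, ihu, ihv, one_mul]
  | inv u hu ihu => rw [inv_pow, ihu, inv_one]

/-- `conj a` maps the window into itself as soon as it does so on generators. -/
theorem mem_normalizer_win [Finite G] {x : ℤ → G} {a b : ℤ} {g : G}
    (h : ∀ i, a ≤ i → i < b → g * x i * g⁻¹ ∈ win x a b) :
    g ∈ Subgroup.normalizer (win x a b : Set G) := by
  have hle : MulAut.conj g • win x a b ≤ win x a b := by
    conv_lhs => unfold win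
    rw [Subgroup.smul_closure, Subgroup.closure_le]
    rintro _ ⟨_, ⟨i, ⟨hi, hi'⟩, rfl⟩, rfl⟩
    exact h i hi hi'
  have he : MulAut.conj g • win x a b = win x a b :=
    Subgroup.eq_of_le_of_card_ge hle (card_smul_subgroup _ _).ge
  refine Subgroup.mem_normalizer_iff.2 fun z => ?_
  have := Subgroup.smul_mem_pointwise_smul_iff (a := MulAut.conj g) (S := win x a b) (x := z)
  rw [he] at this
  exact this.symm

theorem eq_one_or_eq_of_mem_zpowers {z g : G} (h : g ^ 2 = 1) (hz : z ∈ Subgroup.zpowers g) :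
    z = 1 ∨ z = g := by
  obtain ⟨k, rfl⟩ := Subgroup.mem_zpowers_iff.1 hz
  have e : k = k % 2 + 2 * (k / 2) := by omega
  rw [e, zpow_add, zpow_mul, show g ^ (2 : ℤ) = 1 by exact_mod_cast h, one_zpow,
    mul_one]
  rcases Int.emod_two_eq_zero_or_one k with e | e <;> simp [e]

/-- `|A ⊔ B| ≤ |A| |B|` when `A` normalises `B`. -/
theorem card_sup_le [Finite G] {A B : Subgroup G} (h : A ≤ Subgroup.normalizer (B : Set G)) :
    Nat.card ↥(A ⊔ B) ≤ Nat.card A * Nat.card B := by
  rw [← Nat.card_prod]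
  refine Nat.card_le_card_of_surjective
    (fun q : A × B => (⟨q.1 * q.2, Subgroup.mul_mem_sup q.1.2 q.2.2⟩ : ↥(A ⊔ B))) ?_
  rintro ⟨g, hg⟩
  have hg' : g ∈ (A : Set G) * (B : Set G) := by
    rw [← Subgroup.coe_mul_of_left_le_normalizer_right _ _ h]; exact hg
  obtain ⟨a, ha, b, hb, rfl⟩ := hg'
  exact ⟨(⟨a, ha⟩, ⟨b, hb⟩), rfl⟩

section Dihedral

variable {K : Type*} [Group K] [Finite K] {n : ℕ}

/-- A normal subgroup containing the kernel and an involution outside it is everything. -/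
theorem normal_eq_top (hn : Odd n) {f : K →* DihedralGroup n} (hf : Function.Surjective f)
    {N : Subgroup K} [N.Normal] (hk : f.ker ≤ N) {u : K} (hu : u ∈ N) (hu2 : u ^ 2 = 1)
    (hu1 : u ∉ f.ker) : N = ⊤ := by
  have h2 : f u ^ 2 = 1 := by rw [← map_pow, hu2, map_one]
  have h1 : f u ≠ 1 := hu1
  have hmap : N.map f = ⊤ := by
    rcases hfu : f u with i | i
    · exfalso
      rw [hfu] at h1 h2
      have hd : orderOf (DihedralGroup.r i : DihedralGroup n) ∣ n := by
        refine orderOf_dvd_of_pow_eq_one ?_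
        rw [DihedralGroup.r_pow, ZMod.natCast_self, mul_zero]; rfl
      have : orderOf (DihedralGroup.r i : DihedralGroup n) = 1 :=
        Nat.eq_one_of_dvd_coprimes (Nat.coprime_two_left.2 hn) (orderOf_dvd_of_pow_eq_one h2) hd
      exact h1 (orderOf_eq_one_iff.1 this)
    · obtain ⟨δ, hδ⟩ := hf (DihedralGroup.r (-1 : ZMod n))
      refine dihedral_eq_top hn _ (i := i) ⟨u, hu, hfu⟩ ⟨δ * u * δ⁻¹, ‹N.Normal›.conj_mem u hu δ, ?_⟩
      rw [map_mul, map_mul, map_inv, hδ, hfu, DihedralGroup.inv_r, DihedralGroup.r_mul_sr,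
        DihedralGroup.sr_mul_r]
      congr 1; ring
  have h := congrArg (Subgroup.comap f) hmap
  rwa [Subgroup.comap_map_eq_self hk, Subgroup.comap_top] at h

/-- A normal subgroup over the kernel of odd relative index has cyclic image. -/
theorem comm_of_kernel_central (hn : Odd n) {f : K →* DihedralGroup n} {L : Subgroup K} [L.Normal]
    (hodd : Odd (Nat.card (L.map f))) (hc : ∀ q ∈ f.ker ⊓ L, ∀ l ∈ L, q * l = l * q) :
    ∀ a ∈ L, ∀ b ∈ L, a * b = b * a := by
  intro a ha b hb
  have hle := rotations_spec hn f L hodd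
  haveI : IsCyclic (L.map f) := Subgroup.isCyclic_of_le hle
  let g : L →* L.map f := (f.comp L.subtype).codRestrict _ fun l => Subgroup.mem_map_of_mem f l.2
  exact congrArg Subtype.val (commutative_of_cyclic_center_quotient g (fun q hq => by
    rw [MonoidHom.mem_ker] at hq
    have hq' : f (q : K) = 1 := congrArg Subtype.val hq
    exact Subgroup.mem_center_iff.2 fun l => Subtype.ext (hc q ⟨hq', q.2⟩ l l.2).symm) ⟨a, ha⟩ ⟨b, hb⟩)

omit [Finite K] in
theorem card_eq_mul_of_ker_le [Finite K] {D : Type*} [Group D] (f : K →* D) {L : Subgroup K}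
    (h : f.ker ≤ L) : Nat.card L = Nat.card f.ker * Nat.card (L.map f) := by
  rw [← card_mul_relIndex h]
  congr 1
  rw [Subgroup.relIndex_ker]

/-- The odd core of a group with commutative `L` of index coprime data. -/
theorem card_oddCore (Q L : Subgroup K) [L.Normal] (hQL : Q ≤ L) {k m : ℕ}
    (hQ : Nat.card Q = 2 ^ k) (hm : Odd m) (hL : Nat.card L = 2 ^ k * m)
    (hc : ∀ a ∈ L, ∀ b ∈ L, a * b = b * a)
    (hO : ∀ N : Subgroup K, N.Normal → Odd (Nat.card N) → N ≤ L) :
    Nat.card (Cfsg.oddCore K) = m ∧ Cfsg.oddCore K ⊓ Q = ⊥ ∧ L ≤ Cfsg.oddCore K ⊔ Q := by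
  haveI : Fact (Nat.Prime 2) := ⟨Nat.prime_two⟩
  let M : Subgroup K :=
    { carrier := {l | l ∈ L ∧ l ^ m = 1}
      one_mem' := ⟨L.one_mem, one_pow m⟩
      mul_mem' := fun {a b} ha hb => ⟨L.mul_mem ha.1 hb.1, by
        rw [(show Commute a b from hc a ha.1 b hb.1).mul_pow, ha.2, hb.2, one_mul]⟩
      inv_mem' := fun {a} ha => ⟨L.inv_mem ha.1, by rw [inv_pow, ha.2, inv_one]⟩ }
  have hMn : M.Normal := ⟨fun a ha g => ⟨‹L.Normal›.conj_mem a ha.1 g, by
    rw [conj_pow, ha.2, mul_one, mul_inv_cancel]⟩⟩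
  haveI := hMn
  have hco : Nat.Coprime (2 ^ k) m := Nat.Coprime.pow_left _ (Nat.coprime_two_left.2 hm)
  have hMQ : M ⊓ Q = ⊥ := (Subgroup.eq_bot_iff_forall _).2 fun g hg => orderOf_eq_one_iff.1
    (Nat.eq_one_of_dvd_coprimes hco (hQ ▸ Subgroup.orderOf_dvd_natCard Q hg.2)
      (orderOf_dvd_of_pow_eq_one hg.1.2))
  have hgen : L ≤ M ⊔ Q := by
    intro l hl
    have hlL : l ^ (2 ^ k * m) = 1 :=
      orderOf_dvd_iff_pow_eq_one.1 (hL ▸ Subgroup.orderOf_dvd_natCard L hl)
    have hlM : l ^ 2 ^ k ∈ M := ⟨L.pow_mem hl _, by rw [← pow_mul, hlL]⟩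
    have hlQ : l ^ m ∈ Q := by
      -- the elements of `L` killed by `2 ^ k` form `Q`
      let T : Subgroup K :=
        { carrier := {u | u ∈ L ∧ u ^ 2 ^ k = 1}
          one_mem' := ⟨L.one_mem, one_pow _⟩
          mul_mem' := fun {a b} ha hb => ⟨L.mul_mem ha.1 hb.1, by
            rw [(show Commute a b from hc a ha.1 b hb.1).mul_pow, ha.2, hb.2, one_mul]⟩
          inv_mem' := fun {a} ha => ⟨L.inv_mem ha.1, by rw [inv_pow, ha.2, inv_one]⟩ }
      have hQT : Q ≤ T := fun q hq =>
        ⟨hQL hq, orderOf_dvd_iff_pow_eq_one.1 (hQ ▸ Subgroup.orderOf_dvd_natCard Q hq)⟩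
      have hT : IsPGroup 2 T := fun u => ⟨k, Subtype.ext (by simpa using u.2.2)⟩
      obtain ⟨j, hj⟩ := IsPGroup.iff_card.1 hT
      have hTd : 2 ^ j ∣ 2 ^ k * m := hj ▸ hL ▸ Subgroup.card_dvd_of_le (fun u hu => hu.1)
      have hjk : j ≤ k := (Nat.pow_dvd_pow_iff_le_right (by norm_num : 1 < 2)).1
        ((Nat.Coprime.pow_left j (Nat.coprime_two_left.2 hm)).dvd_of_dvd_mul_right hTd)
      have e : Q = T := Subgroup.eq_of_le_of_card_ge hQT
        (by rw [hj, hQ]; exact Nat.pow_le_pow_right two_pos hjk)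
      rw [e]
      exact ⟨L.pow_mem hl _, by rw [← pow_mul, mul_comm, hlL]⟩
    have hb : (1 : ℤ) = (2 ^ k : ℕ) * Nat.gcdA (2 ^ k) m + m * Nat.gcdB (2 ^ k) m := by
      rw [← Nat.gcd_eq_gcd_ab, hco.gcd_eq_one]; rfl
    rw [← zpow_one l, hb, zpow_add, zpow_mul, zpow_mul, zpow_natCast, zpow_natCast]
    exact Subgroup.mul_mem_sup (M.zpow_mem hlM _) (Q.zpow_mem hlQ _)
  have hMc : Nat.card M = m := by
    have h1 := H32.card_sup_mul_card_inf Q M
    rw [inf_comm, hMQ, Subgroup.card_bot, mul_one, hQ, sup_comm,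
      le_antisymm (sup_le (fun u hu => hu.1) hQL) hgen, hL] at h1
    exact (mul_left_cancel₀ (pow_ne_zero _ two_ne_zero) h1).symm
  have hOM : Cfsg.oddCore K = M := by
    refine le_antisymm (fun g hg => ?_)
      (H19.le_pPrimeCore hMn (by rw [hMc]; exact Nat.coprime_two_right.2 hm))
    have ho : Odd (Nat.card (Cfsg.oddCore K)) :=
      Nat.coprime_two_right.1 (H19.pPrimeCore_coprime 2)
    have hgL := hO _ (H19.pPrimeCore_normal 2 K) ho hg
    refine ⟨hgL, orderOf_dvd_iff_pow_eq_one.1 ?_⟩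
    have h1 : orderOf g ∣ Nat.card (Cfsg.oddCore K) := Subgroup.orderOf_dvd_natCard _ hg
    have h2 : orderOf g ∣ 2 ^ k * m := hL ▸ Subgroup.orderOf_dvd_natCard _ hgL
    have h3 : Nat.Coprime (orderOf g) (2 ^ k) :=
      Nat.Coprime.pow_right _ (Nat.coprime_two_right.2 (ho.of_dvd_nat h1))
    exact h3.dvd_of_dvd_mul_left h2
  rw [hOM]
  exact ⟨hMc, hMQ, hgen⟩

/-- Action on a normal four-group: the centraliser has index 6. -/
theorem index_centralizer_four (hn : Odd n) {f : K →* DihedralGroup n} (hf : Function.Surjective f)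
    (hV : Nat.card f.ker = 4) (hcomm : ∀ a ∈ f.ker, ∀ b ∈ f.ker, a * b = b * a) {u w a : K}
    (hu : u ^ 2 = 1) (hw : w ^ 2 = 1) (ha : a ∈ f.ker) (hua : u * a ≠ a * u) (hwa : w * a = a * w)
    (hwV : ∃ b ∈ f.ker, w * b ≠ b * w) :
    (Subgroup.centralizer (f.ker : Set K)).index = 6 := by
  classical
  haveI := Fintype.ofFinite K
  set V := f.ker with hVdef
  let A : K →* MulAut V := MulAut.conjNormal
  have hmem : ∀ g : K, g ∈ A.ker ↔ g ∈ Subgroup.centralizer (V : Set K) := by
    intro g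
    rw [MonoidHom.mem_ker, Subgroup.mem_centralizer_iff, MulEquiv.ext_iff]
    constructor
    · intro h v hv
      have := congrArg Subtype.val (h ⟨v, hv⟩)
      rw [MulAut.conjNormal_apply] at this
      exact (mul_inv_eq_iff_eq_mul.1 this).symm
    · intro h v
      refine Subtype.ext ?_
      rw [MulAut.conjNormal_apply]
      exact mul_inv_eq_iff_eq_mul.2 (h v v.2).symm
  have hker : A.ker = Subgroup.centralizer (V : Set K) := Subgroup.ext hmem
  have hVc : V ≤ Subgroup.centralizer (V : Set K) := fun q hq =>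
    Subgroup.mem_centralizer_iff.2 fun r hr => hcomm r hr q hq
  rw [← hker, Subgroup.index_ker]
  have hAu : A u ≠ 1 := fun h =>
    hua (Subgroup.mem_centralizer_iff.1 ((hmem u).1 h) a ha).symm
  have hAw : A w ≠ 1 := fun h => by
    obtain ⟨b, hb, hb'⟩ := hwV
    exact hb' (Subgroup.mem_centralizer_iff.1 ((hmem w).1 h) b hb).symm
  have huw : A u ≠ A w := fun h => by
    have := congrArg Subtype.val (DFunLike.congr_fun h ⟨a, ha⟩)
    rw [MulAut.conjNormal_apply, MulAut.conjNormal_apply] at this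
    simp only [hwa, mul_inv_cancel_right] at this
    exact hua (mul_inv_eq_iff_eq_mul.1 this)
  set I := A.range
  have hI3 : 3 ≤ Nat.card I := by
    haveI := Fintype.ofFinite I
    rw [Nat.card_eq_fintype_card]
    have h3 : ({⟨1, I.one_mem⟩, ⟨A u, u, rfl⟩, ⟨A w, w, rfl⟩} : Finset I).card = 3 := by
      rw [Finset.card_insert_of_notMem, Finset.card_insert_of_notMem, Finset.card_singleton]
      · rw [Finset.mem_singleton]; exact fun h => huw (congrArg Subtype.val h)
      · simp only [Finset.mem_insert, Finset.mem_singleton, not_or]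
        exact ⟨fun h => hAu (congrArg Subtype.val h).symm, fun h => hAw (congrArg Subtype.val h).symm⟩
    exact h3 ▸ Finset.card_le_univ _
  have hI6 : Nat.card I ≤ 6 := by
    haveI := Fintype.ofFinite V
    have hp : Fintype.card {v : V // v ≠ 1} = 3 := by
      rw [Fintype.card_subtype_compl, Fintype.card_subtype_eq, ← Nat.card_eq_fintype_card, hV]
    let e : I → Equiv.Perm {v : V // v ≠ 1} := fun σ =>
      ((σ : MulAut V).toEquiv).subtypeEquiv fun v => by simp
    have he : Function.Injective e := by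
      intro σ τ h
      refine Subtype.ext (MulEquiv.ext fun v => ?_)
      by_cases hv : v = 1
      · simp [hv]
      · exact congrArg Subtype.val (DFunLike.congr_fun h ⟨v, hv⟩)
    calc Nat.card I ≤ Nat.card (Equiv.Perm {v : V // v ≠ 1}) := Nat.card_le_card_of_injective e he
      _ = 6 := by rw [Nat.card_eq_fintype_card, Fintype.card_perm, hp]; rfl
  have h2 : 2 ∣ Nat.card I := by
    have : orderOf (⟨A u, u, rfl⟩ : I) = 2 :=
      orderOf_eq_prime (Subtype.ext (by show A u ^ 2 = 1; rw [← map_pow, hu, map_one]))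
        fun h => hAu (congrArg Subtype.val h)
    exact this ▸ orderOf_dvd_natCard _
  have hd : Nat.card I ∣ 2 * n := by
    have h1 := Subgroup.index_dvd_of_le (hker ▸ hVc : V ≤ A.ker)
    have h2 : V.index = 2 * n := by
      show f.ker.index = 2 * n
      rw [Subgroup.index_ker, f.range_eq_top.2 hf, Subgroup.card_top, DihedralGroup.nat_card]
    rwa [Subgroup.index_ker, h2] at h1
  obtain ⟨c, hc⟩ := h2
  have : c ∣ n := by
    rw [hc] at hd; exact Nat.dvd_of_mul_dvd_mul_left two_pos hd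
  have hco : Odd c := hn.of_dvd_nat this
  obtain ⟨e, rfl⟩ := hco
  omega

end Dihedral

end Cfsg.Agent.H91.Sims
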