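import Cfsg.Agent.S4359
import Cfsg.Agent.H91.Sims.Chain
import Cfsg.Agent.H91.Sims.Recognition

/-!
Pushing up for a group with dihedral top: reduction to a Sims sequence.
-/

open scoped Pointwise

namespace Cfsg.Agent.H91.Sims

variable {G : Type*} [Group G]

/-- The data extracted from the pushing up hypotheses. -/
structure PushUp (H : Subgroup G) (P : Subgroup G) (y : G) (n t : ℕ) (x : ℤ → G) : Prop where
  windowed : Windowed 2 t x
  shift : ∃ ψ : MulAut G, ∀ i k : ℤ, (ψ ^ k) (x i) = x (i + k)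
  two_le : 2 ≤ t
  win_P : win x 0 t = P
  win_H : win x (-1) t = H
  conj_central : ∀ i : ℤ, (∀ h ∈ H, x i * h = h * x i) → y * x i * y⁻¹ = x (i + 1)
  no_central : ∀ z ∈ P, (∀ h ∈ H, z * h = h * z) → (∀ h ∈ H, y * z * y⁻¹ * h = h * (y * z * y⁻¹)) →
    z = 1
  no_normal : ∀ N : Subgroup G, N ≤ P → H ≤ Subgroup.normalizer (N : Set G) →
    MulAut.conj y • N = N → N = ⊥
  dihedral : ∃ f : ↥H →* DihedralGroup n, Function.Surjective f ∧ f.ker = (win x 0 (t - 1)).subgroupOf H
  odd_n : Odd n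
  three_le : 3 ≤ n
  conj_Q : MulAut.conj y • win x 0 (t - 1) = win x 1 t
  conj_Q' : MulAut.conj y • win x 1 t = win x 0 (t - 1)
  le_six : t ≤ 6
  ne_five : t ≠ 5

/-- An involution in the centre of a dihedral group of twice even order. -/
theorem dihedral_central_involution {k : ℕ} (hk : 1 ≤ k) :
    (DihedralGroup.r (k : ZMod (k + k))) ≠ 1 ∧
      (DihedralGroup.r (k : ZMod (k + k))) ^ 2 = 1 ∧
      ∀ g : DihedralGroup (k + k), g * DihedralGroup.r (k : ZMod (k + k)) * g⁻¹ =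
        DihedralGroup.r (k : ZMod (k + k)) := by
  have h2 : ((k : ZMod (k + k)) + k) = 0 := by rw [← Nat.cast_add, ZMod.natCast_self]
  refine ⟨?_, ?_, ?_⟩
  · rw [DihedralGroup.one_def]
    intro h
    rw [DihedralGroup.r.injEq, ZMod.natCast_eq_zero_iff] at h
    have := Nat.le_of_dvd hk h
    omega
  · rw [pow_two, DihedralGroup.r_mul_r, h2]; rfl
  · rintro (i | i)
    · rw [mul_inv_eq_iff_eq_mul, DihedralGroup.r_mul_r, DihedralGroup.r_mul_r]
      congr 1
      exact add_comm _ _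
    · rw [mul_inv_eq_iff_eq_mul, DihedralGroup.sr_mul_r, DihedralGroup.r_mul_sr]
      congr 1
      rw [sub_eq_add_neg, show -(k : ZMod (k + k)) = k from (eq_neg_of_add_eq_zero_left h2).symm]

/-- A subgroup of a dihedral group of twice odd order containing two distinct reflections
`sr i`, `sr (i + 2)` is everything. -/
theorem dihedral_eq_top {n : ℕ} (hn : Odd n) (T : Subgroup (DihedralGroup n)) {i : ZMod n}
    (h1 : DihedralGroup.sr i ∈ T) (h2 : DihedralGroup.sr (i + 2) ∈ T) : T = ⊤ := by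
  haveI : NeZero n := ⟨hn.pos.ne'⟩
  have hr2 : DihedralGroup.r (2 : ZMod n) ∈ T := by
    have := T.mul_mem h1 h2
    rwa [DihedralGroup.sr_mul_sr, add_sub_cancel_left] at this
  have hr : ∀ j : ZMod n, DihedralGroup.r j ∈ T := by
    intro j
    obtain ⟨m, hm⟩ := hn
    have h := T.pow_mem hr2 ((j * (m + 1 : ℕ)).val)
    rw [DihedralGroup.r_pow, ZMod.natCast_zmod_val] at h
    have e : 2 * (j * ((m + 1 : ℕ) : ZMod n)) = j := by
      have h0 : ((2 * (m + 1) : ℕ) : ZMod n) = 1 := by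
        rw [show 2 * (m + 1) = n + 1 by omega, Nat.cast_add, ZMod.natCast_self]; simp
      calc 2 * (j * ((m + 1 : ℕ) : ZMod n)) = j * ((2 * (m + 1) : ℕ) : ZMod n) := by push_cast; ring
        _ = j := by rw [h0, mul_one]
    rwa [e] at h
  refine (Subgroup.eq_top_iff' T).2 fun g => ?_
  rcases g with j | j
  · exact hr j
  · have := T.mul_mem h1 (hr (j - i))
    rwa [DihedralGroup.sr_mul_r, add_sub_cancel] at this

/-- Existence of the data. -/
theorem exists_pushUp [Finite G] (H : Subgroup G) (hO : Cfsg.pCore 2 ↥H ≠ ⊥) (n : ℕ) (hn : 2 ≤ n)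
    (f : ↥H →* DihedralGroup n) (hf : Function.Surjective f) (hker : f.ker = Cfsg.pCore 2 ↥H)
    (P : Subgroup G) (hPH : P ≤ H) (hP : IsPGroup 2 P) (hPsyl : ¬ 2 ∣ P.relIndex H) (y : G)
    (hy2 : y ^ 2 ∈ P ⊔ Subgroup.centralizer (P : Set G)) (hyN : MulAut.conj y • P = P)
    (hyQ : ∀ Q : Subgroup G, Q ≤ P → (Q.subgroupOf H).Normal → MulAut.conj y • Q = Q → Q = ⊥) :
    ∃ (t : ℕ) (x : ℤ → G), PushUp H P y n t x := by
  classical
  haveI : Fact (Nat.Prime 2) := ⟨Nat.prime_two⟩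
  haveI : NeZero n := ⟨by omega⟩
  haveI hQn := H19.pCore_normal 2 ↥H
  have hQp : IsPGroup 2 (Cfsg.pCore 2 ↥H) := H19.pCore_isPGroup 2
  have hkn : (f.ker).Normal := inferInstance
  -- `n` is odd
  have hodd : Odd n := by
    by_contra h
    obtain ⟨k, rfl⟩ := Nat.not_odd_iff_even.1 h
    obtain ⟨hc1, hc2, hc3⟩ := dihedral_central_involution (k := k) (by omega)
    set c : DihedralGroup (k + k) := DihedralGroup.r (k : ZMod (k + k))
    haveI : (Subgroup.zpowers c).Normal := ⟨fun a ha g => by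
      obtain ⟨j, rfl⟩ := Subgroup.mem_zpowers_iff.1 ha
      rw [← conj_zpow, hc3]; exact Subgroup.zpow_mem _ (Subgroup.mem_zpowers c) j⟩
    have hp2 : IsPGroup 2 ((Subgroup.zpowers c).comap f) := by
      have hz : IsPGroup 2 (Subgroup.zpowers c) := by
        refine IsPGroup.of_card (n := 1) ?_
        rw [Nat.card_zpowers, pow_one]
        exact orderOf_eq_prime hc2 hc1
      intro g
      obtain ⟨a, ha⟩ := hz ⟨f g, g.2⟩
      have hg : (g : ↥H) ^ 2 ^ a ∈ f.ker := by
        rw [MonoidHom.mem_ker, map_pow]; exact congrArg Subtype.val ha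
      rw [hker] at hg
      obtain ⟨b, hb⟩ := hQp ⟨_, hg⟩
      refine ⟨a + b, Subtype.ext ?_⟩
      have := congrArg Subtype.val hb
      simpa [pow_add, pow_mul] using this
    obtain ⟨g, hg⟩ := hf c
    have h1 : g ∈ Cfsg.pCore 2 ↥H :=
      H19.le_pCore inferInstance hp2 (show f g ∈ Subgroup.zpowers c from hg ▸ Subgroup.mem_zpowers c)
    rw [← hker, MonoidHom.mem_ker, hg] at h1
    exact hc1 h1
  have h3 : 3 ≤ n := by
    rcases Nat.lt_or_ge n 3 with h | h
    · obtain rfl : n = 2 := by omega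
      exact absurd hodd (by decide)
    · exact h
  -- `P` in `H`, containing the kernel
  set Q : Subgroup G := (Cfsg.pCore 2 ↥H).map H.subtype with hQdef
  have hQH : Q ≤ H := Subgroup.map_subtype_le _
  let S : Sylow 2 ↥H :=
    IsPGroup.toSylow (p := 2) (P := P.subgroupOf H) (hP.comap_subtype) hPsyl
  have hS : (S : Subgroup ↥H) = P.subgroupOf H := rfl
  have hQP : Q ≤ P := by
    rintro _ ⟨q, hq, rfl⟩
    obtain ⟨g, hg⟩ : ∃ g : ↥H, q ∈ (S : Subgroup ↥H) := by
      refine ⟨1, ?_⟩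
      have hle : IsPGroup 2 ↥((S : Subgroup ↥H) ⊔ Cfsg.pCore 2 ↥H) :=
        S.2.to_sup_of_normal_right hQp
      exact (S.3 hle le_sup_left) ▸ Subgroup.mem_sup_right hq
    rw [hS, Subgroup.mem_subgroupOf] at hg
    exact hg
  have hQnorm : H ≤ Subgroup.normalizer (Q : Set G) := by
    refine (Subgroup.normal_subgroupOf_iff_le_normalizer hQH).1 ?_
    have : Q.subgroupOf H = Cfsg.pCore 2 ↥H := by
      rw [hQdef]; exact Subgroup.comap_map_eq_self_of_injective H.subtype_injective _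
    rw [this]; exact hQn
  have hkQ : f.ker = Q.subgroupOf H := by
    rw [hker, hQdef]; exact (Subgroup.comap_map_eq_self_of_injective H.subtype_injective _).symm
  -- cardinalities
  have hcardH : Nat.card H = Nat.card Q * (2 * n) := by
    have := f.ker.card_mul_index
    rw [Subgroup.index_ker, f.range_eq_top.2 hf, Subgroup.card_top, DihedralGroup.nat_card, hker] at this
    rw [← this, hQdef, Subgroup.card_map_of_injective H.subtype_injective]
  obtain ⟨a, ha⟩ := IsPGroup.iff_card.1 (hQp.map H.subtype)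
  obtain ⟨b, hb⟩ := IsPGroup.iff_card.1 hP
  have hbP : b = a + 1 := by
    have h1 := card_mul_relIndex hPH
    rw [hcardH, hb] at h1
    change Nat.card Q = _ at ha
    rw [ha] at h1
    have hr : Nat.Coprime 2 (P.relIndex H) := (Nat.prime_two.coprime_iff_not_dvd).2 hPsyl
    have h1' : 2 ^ b * P.relIndex H = 2 ^ (a + 1) * n := by rw [h1, pow_succ]; ring
    refine le_antisymm ?_ ?_
    · refine (Nat.pow_dvd_pow_iff_le_right (by norm_num : 1 < 2)).1 ?_
      exact (Nat.Coprime.pow_left b (Nat.coprime_two_left.2 hodd)).dvd_of_dvd_mul_right ⟨_, h1'.symm⟩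
    · refine (Nat.pow_dvd_pow_iff_le_right (by norm_num : 1 < 2)).1 ?_
      exact (Nat.Coprime.pow_left _ hr).dvd_of_dvd_mul_right ⟨_, h1'⟩
  subst hbP
  change Nat.card Q = _ at ha
  have hPQ : ¬ P ≤ Q := fun h => by
    have := Nat.le_of_dvd Nat.card_pos (Subgroup.card_dvd_of_le h)
    rw [hb, ha, pow_succ] at this
    have := Nat.one_le_two_pow (n := a)
    omega
  obtain ⟨s, hsP, hsQ⟩ := SetLike.not_le_iff_exists.1 hPQ
  have hfs1 : f ⟨s, hPH hsP⟩ ≠ 1 := fun h => hsQ <| by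
    have : (⟨s, hPH hsP⟩ : ↥H) ∈ f.ker := h
    rw [hkQ] at this
    exact this
  obtain ⟨i, hi⟩ : ∃ i, f ⟨s, hPH hsP⟩ = DihedralGroup.sr i := by
    rcases hfd : f ⟨s, hPH hsP⟩ with j | j
    · exfalso
      apply hfs1
      rw [hfd]
      have h1 : orderOf (DihedralGroup.r j : DihedralGroup n) ∣ 2 ^ (a + 1) := by
        rw [← hfd]
        refine (orderOf_map_dvd f _).trans ?_
        rw [← Subgroup.orderOf_coe]
        exact hb ▸ Subgroup.orderOf_dvd_natCard P hsP
      have h2 : orderOf (DihedralGroup.r j : DihedralGroup n) ∣ n := by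
        refine orderOf_dvd_of_pow_eq_one ?_
        rw [DihedralGroup.r_pow, ZMod.natCast_self, mul_zero]; rfl
      exact orderOf_eq_one_iff.1 (Nat.eq_one_of_dvd_coprimes
        (Nat.Coprime.pow_left _ (Nat.coprime_two_left.2 hodd)) h1 h2)
    · exact ⟨j, rfl⟩
  obtain ⟨δ, hδ⟩ := hf (DihedralGroup.r (-1 : ZMod n))
  have hmemN : ∀ {K : Subgroup G} {g : G}, g ∈ Subgroup.normalizer (K : Set G) →
      MulAut.conj g • K = K := by
    intro K g hg
    ext z
    rw [Subgroup.mem_pointwise_smul_iff_inv_smul_mem, MulAut.smul_def, MulAut.conj_inv_apply]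
    have := Subgroup.mem_normalizer_iff.1 hg (g⁻¹ * z * g)
    simpa [mul_assoc] using this
  have hnormN : ∀ {K : Subgroup G} {g : G}, MulAut.conj g • K = K →
      g ∈ Subgroup.normalizer (K : Set G) := by
    intro K g hg
    refine Subgroup.mem_normalizer_iff.2 fun z => ?_
    conv_rhs => rw [← hg, Subgroup.mem_pointwise_smul_iff_inv_smul_mem, MulAut.smul_def,
      MulAut.conj_inv_apply]
    simp [mul_assoc]
  have hδQ : MulAut.conj (δ : G) • Q = Q := hmemN (hQnorm δ.2)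
  set ψ : MulAut G := MulAut.conj (y * (δ : G)⁻¹) with hψ
  have hφ : ψ⁻¹ • P = MulAut.conj (δ : G) • P := by
    rw [hψ, ← map_inv, mul_inv_rev, inv_inv, map_mul, mul_smul]
    congr 1
    conv_lhs => rw [← hyN]
    rw [map_inv, inv_smul_smul]
  have hδH : MulAut.conj (δ : G) • P ≤ H := by
    intro z hz
    rw [Subgroup.mem_pointwise_smul_iff_inv_smul_mem, MulAut.smul_def, MulAut.conj_inv_apply] at hz
    have := H.mul_mem (H.mul_mem δ.2 (hPH hz)) (H.inv_mem δ.2)
    simpa [mul_assoc] using this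
  have hjoin : P ⊔ ψ⁻¹ • P = H := by
    rw [hφ]
    refine le_antisymm (sup_le hPH hδH) ?_
    set W := P ⊔ MulAut.conj (δ : G) • P
    have hQW : f.ker ≤ W.subgroupOf H := by
      rw [hkQ]; exact Subgroup.comap_mono (hQP.trans le_sup_left)
    have htop : (W.subgroupOf H).map f = ⊤ := by
      refine dihedral_eq_top hodd _ (i := i) ⟨⟨s, hPH hsP⟩, Subgroup.mem_sup_left hsP, hi⟩
        ⟨δ * ⟨s, hPH hsP⟩ * δ⁻¹, ?_, ?_⟩
      · exact Subgroup.mem_sup_right (Subgroup.smul_mem_pointwise_smul s (MulAut.conj (δ : G)) P hsP)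
      · rw [map_mul, map_mul, map_inv, hδ, hi, DihedralGroup.inv_r, DihedralGroup.r_mul_sr,
          DihedralGroup.sr_mul_r]
        congr 1; ring
    have h := congrArg (Subgroup.comap f) htop
    rw [Subgroup.comap_map_eq_self hQW, Subgroup.comap_top] at h
    intro z hz
    exact (h ▸ Subgroup.mem_top (⟨z, hz⟩ : ↥H) : (⟨z, hz⟩ : ↥H) ∈ W.subgroupOf H)
  have hQφ : Q ≤ ψ⁻¹ • P := by
    rw [hφ]
    conv_lhs => rw [← hδQ]
    exact Subgroup.pointwise_smul_le_pointwise_smul_iff.2 hQP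
  have hcardφ : Nat.card (ψ⁻¹ • P : Subgroup G) = 2 ^ (a + 1) := by rw [card_smul_subgroup, hb]
  have hinf : P ⊓ ψ⁻¹ • P = Q := by
    rcases (le_inf hQP hQφ).eq_or_lt with h | h
    · exact h.symm
    exfalso
    have e := eq_of_lt_of_card Nat.prime_two h inf_le_right ha hcardφ
    have e' : ψ⁻¹ • P = P :=
      Subgroup.eq_of_le_of_card_ge (e ▸ inf_le_left) (by rw [hcardφ, hb])
    rw [e', sup_idem] at hjoin
    rw [← hjoin, hb, ha, pow_succ] at hcardH
    have := mul_left_cancel₀ (pow_ne_zero _ two_ne_zero) hcardH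
    omega
  have hN : ((P ⊓ ψ⁻¹ • P).subgroupOf (ψ⁻¹ • P)).Normal := by
    rw [hinf, Subgroup.normal_subgroupOf_iff_le_normalizer hQφ]
    exact le_normalizer_of_card_eq Nat.prime_two hQφ ha hcardφ
  have hidx : (P ⊓ ψ⁻¹ • P).relIndex (ψ⁻¹ • P) = 2 := by
    rw [hinf]
    have := card_mul_relIndex hQφ
    rw [ha, hcardφ, pow_succ] at this
    exact mul_left_cancel₀ (pow_ne_zero _ two_ne_zero) this
  have hno : ∀ N : Subgroup G, N ≤ P → H ≤ Subgroup.normalizer (N : Set G) →
      MulAut.conj y • N = N → N = ⊥ := fun N h1 h2 h3 =>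
    hyQ N h1 ((Subgroup.normal_subgroupOf_iff_le_normalizer (h1.trans hPH)).2 h2) h3
  have hψ1 : ∀ N : Subgroup G, N ≤ P → (N.subgroupOf P).Normal → ψ • N = N → N = ⊥ := by
    intro N hNP hNn hNψ
    have h2 := (Subgroup.normal_subgroupOf_iff_le_normalizer hNP).1 hNn
    have hNφ : ψ⁻¹ • N = N := by
      conv_lhs => rw [← hNψ]
      exact inv_smul_smul _ _
    have hmem : ∀ w, w ∈ N ↔ ψ w ∈ N := fun w => by
      conv_rhs => rw [← hNψ]
      exact (Subgroup.smul_mem_pointwise_smul_iff (a := ψ)).symm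
    have h3 : ψ⁻¹ • P ≤ Subgroup.normalizer (N : Set G) := by
      intro z hz
      rw [Subgroup.mem_pointwise_smul_iff_inv_smul_mem, inv_inv, MulAut.smul_def] at hz
      refine Subgroup.mem_normalizer_iff.2 fun w => ?_
      rw [hmem w, hmem (z * w * z⁻¹), map_mul, map_mul, map_inv]
      exact Subgroup.mem_normalizer_iff.1 (h2 hz) _
    have hHN : H ≤ Subgroup.normalizer (N : Set G) := hjoin ▸ sup_le h2 h3
    refine hno N hNP hHN ?_
    have h6 : MulAut.conj (δ : G)⁻¹ • N = N := hmemN (hHN (H.inv_mem δ.2))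
    rwa [hψ, map_mul, mul_smul, h6] at hNψ
  obtain ⟨t, x, ht, hW, hx, hP'⟩ := exists_windowed P ψ Nat.prime_two hN hidx hψ1
  have hta : t = a + 1 := by
    have := hW.card 0 t le_rfl
    rw [zero_add, hP', hb] at this
    exact (Nat.pow_right_injective le_rfl this).symm
  have hφw : ψ⁻¹ • P = win x (-1) (t - 1) := by
    have := smul_win hx (-1) 0 t
    rw [hP', zpow_neg_one] at this
    simpa [sub_eq_add_neg] using this
  have hQw : win x 0 (t - 1) = Q := by
    refine Subgroup.eq_of_le_of_card_ge ?_ ?_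
    · rw [← hinf, hφw]
      exact le_inf (hP' ▸ win_mono le_rfl (by omega)) (win_mono (by omega) le_rfl)
    · have := hW.card 0 a (by omega)
      rw [ha, show (t : ℤ) - 1 = 0 + a by omega, this]
  have hwH : win x (-1) t = H := by
    rw [← hjoin, hφw, ← hP', sup_comm]
    exact (win_sup_win (by omega) (by omega) (by omega)).symm
  have hψz : ∀ z : G, (∀ h ∈ H, z * h = h * z) → ψ z = y * z * y⁻¹ := by
    intro z hz
    have := hz (δ : G) δ.2
    rw [hψ, MulAut.conj_apply, mul_inv_rev, inv_inv]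
    calc y * (δ : G)⁻¹ * z * ((δ : G) * y⁻¹) = y * ((δ : G)⁻¹ * (z * δ)) * y⁻¹ := by group
      _ = y * z * y⁻¹ := by rw [this, inv_mul_cancel_left]
  have hPc : ∀ z ∈ P, (∀ h ∈ H, z * h = h * z) → y * (y * z * y⁻¹) * y⁻¹ = z := by
    intro z hz hzH
    have hle : P ⊔ Subgroup.centralizer (P : Set G) ≤ Subgroup.centralizer {z} := by
      refine sup_le (fun u hu => ?_) (fun u hu => ?_)
      · exact Subgroup.mem_centralizer_singleton_iff.2 (hzH u (hPH hu)).symm
      · exact Subgroup.mem_centralizer_singleton_iff.2 (Subgroup.mem_centralizer_iff.1 hu z hz).symm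
    have := Subgroup.mem_centralizer_singleton_iff.1 (hle hy2)
    calc y * (y * z * y⁻¹) * y⁻¹ = y ^ 2 * z * (y ^ 2)⁻¹ := by simp [pow_two, mul_assoc]
      _ = z := by rw [this, mul_inv_cancel_right]
  have hnc : ∀ z ∈ P, (∀ h ∈ H, z * h = h * z) →
      (∀ h ∈ H, y * z * y⁻¹ * h = h * (y * z * y⁻¹)) → z = 1 := by
    intro z hzP hzH hzy
    let M : Subgroup G := P ⊓ Subgroup.centralizer (H : Set G) ⊓
      (Subgroup.centralizer (H : Set G)).comap (MulAut.conj y).toMonoidHom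
    have hMc : M ≤ Subgroup.centralizer (H : Set G) := fun u hu => hu.1.2
    have hMn : H ≤ Subgroup.normalizer (M : Set G) := fun h hh =>
      Subgroup.centralizer_le_normalizer _ (Subgroup.mem_centralizer_iff.2 fun u hu =>
        ((Subgroup.mem_centralizer_iff.1 (hMc hu)) h hh).symm)
    have hle : MulAut.conj y • M ≤ M := by
      rintro _ ⟨u, hu, rfl⟩
      have huH : ∀ h ∈ H, u * h = h * u := fun h hh => (Subgroup.mem_centralizer_iff.1 hu.1.2 h hh).symm
      refine ⟨⟨?_, hu.2⟩, ?_⟩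
      · rw [← hyN]; exact Subgroup.smul_mem_pointwise_smul u _ P hu.1.1
      · show y * (y * u * y⁻¹) * y⁻¹ ∈ Subgroup.centralizer (H : Set G)
        rw [hPc u hu.1.1 huH]; exact hu.1.2
    have hM0 := hno M (inf_le_left.trans inf_le_left) hMn
      (Subgroup.eq_of_le_of_card_ge hle (card_smul_subgroup _ _).ge)
    refine Subgroup.mem_bot.1 (hM0 ▸ ⟨⟨hzP, ?_⟩, ?_⟩)
    · exact Subgroup.mem_centralizer_iff.2 fun h hh => (hzH h hh).symm
    · show y * z * y⁻¹ ∈ Subgroup.centralizer (H : Set G)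
      exact Subgroup.mem_centralizer_iff.2 fun h hh => (hzy h hh).symm
  have hψφ : ∀ {z : G}, z ∈ P → ψ⁻¹ z ∈ ψ⁻¹ • P := fun hz => Subgroup.smul_mem_pointwise_smul _ _ _ hz
  obtain ⟨t', ht', -, h6, h5⟩ : ∃ t' : ℕ, Nat.card P = 2 ^ t' ∧ 1 ≤ t' ∧ t' ≤ 3 * 2 ∧ t' ≠ 3 * 2 - 1 := by
    have e : MulAut.conj (y * (δ : G)⁻¹)⁻¹ = ψ⁻¹ := map_inv _ _
    refine S4359.result P (y * (δ : G)⁻¹) 2 Nat.prime_two (by rw [e]; exact hN) (by rw [e]; exact hidx)
      2 (by norm_num) _ rfl hψ1 ?_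
    refine (Subgroup.eq_bot_iff_forall _).2 fun z hz => ?_
    obtain ⟨hzP, ⟨w, hzc, hwz⟩⟩ := hz
    set K := ⨆ i ∈ Finset.range (2 + 1), MulAut.conj ((y * (δ : G)⁻¹) ^ i)⁻¹ • P with hKdef
    have hK0 : P ≤ K := le_iSup₂_of_le 0 (by simp) (by simp)
    have hK1 : ψ⁻¹ • P ≤ K := le_iSup₂_of_le 1 (by simp) (by rw [pow_one, e])
    have hK2 : ψ⁻¹ • ψ⁻¹ • P ≤ K := le_iSup₂_of_le 2 (by simp)
      (by rw [pow_two, mul_inv_rev, map_mul, mul_smul, e])
    have hcom : ∀ k ∈ K, z * k = k * z := fun k hk => by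
      have := congrArg Subtype.val (Subgroup.mem_center_iff.1 hzc ⟨k, hk⟩)
      simp only [Subgroup.coe_mul] at this
      rw [← hwz]; exact this.symm
    have hgenH : ∀ c : G, (∀ p ∈ P, c * p = p * c) → (∀ p ∈ ψ⁻¹ • P, c * p = p * c) →
        ∀ h ∈ H, c * h = h * c := by
      intro c h1 h2 h hh
      have hle : H ≤ Subgroup.centralizer {c} := hjoin ▸ sup_le
        (fun p hp => Subgroup.mem_centralizer_singleton_iff.2 (h1 p hp).symm)
        (fun p hp => Subgroup.mem_centralizer_singleton_iff.2 (h2 p hp).symm)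
      exact (Subgroup.mem_centralizer_singleton_iff.1 (hle hh)).symm
    have hzH := hgenH z (fun p hp => hcom p (hK0 hp)) (fun p hp => hcom p (hK1 hp))
    refine hnc z hzP hzH ?_
    rw [← hψz z hzH]
    have hstep : ∀ p, ψ⁻¹ • p ∈ K → ψ z * p = p * ψ z := fun p hp => by
      have h := congrArg ψ (hcom _ hp)
      simpa [map_mul, MulAut.smul_def] using h
    refine hgenH _ (fun p hp => hstep p (hK1 (Subgroup.smul_mem_pointwise_smul p ψ⁻¹ P hp)))
      (fun p hp => hstep p (hK2 (Subgroup.smul_mem_pointwise_smul p ψ⁻¹ _ hp)))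
  have htt : t = t' := by
    rw [hb] at ht'; rw [hta]; exact Nat.pow_right_injective le_rfl ht'
  have hQy : MulAut.conj y • win x 0 (t - 1) = win x 1 t := by
    have h := smul_win hx 1 0 (t - 1)
    rw [zpow_one, zero_add, sub_add_cancel] at h
    rw [← h, hQw, hψ, map_mul, mul_smul, hmemN (hQnorm (H.inv_mem δ.2))]
  refine ⟨t, x, hW, ⟨ψ, hx⟩, ?_, hP', hwH, fun i hi => ?_, hnc, hno, ⟨f, hf, ?_⟩, hodd, h3, hQy, ?_,
    by omega, by omega⟩
  · rcases Nat.eq_zero_or_pos a with rfl | ha0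
    · exfalso
      rw [pow_zero, hQdef, Subgroup.card_eq_one, Subgroup.map_eq_bot_iff_of_injective _
        H.subtype_injective] at ha
      exact hO ha
    · omega
  · rw [← hψz (x i) hi]
    have := hx i 1
    rwa [zpow_one] at this
  · rw [hkQ, hQw]
  · rw [← hQy, ← mul_smul, ← map_mul, ← pow_two, hQw]
    refine hmemN ((show P ⊔ Subgroup.centralizer (P : Set G) ≤ Subgroup.normalizer (Q : Set G)
      from sup_le ?_ ?_) hy2)
    · exact hPH.trans hQnorm
    · exact fun u hu => Subgroup.centralizer_le_normalizer _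
        (Subgroup.centralizer_le (show (Q : Set G) ⊆ P from hQP) hu)

end Cfsg.Agent.H91.Sims
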