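import Mathlib

/-!
Sequences `x : ℤ → G` whose windows of length at most `t` generate subgroups of order `p ^ length`
with the Sims commutator property, and the inequality `2 * t ≤ 3 * s`.
-/

open scoped Pointwise

namespace Cfsg.Agent.H91.Sims

variable {G : Type*} [Group G]

/-- The subgroup generated by the terms with index in `[a, b)`. -/
def win (x : ℤ → G) (a b : ℤ) : Subgroup G := Subgroup.closure (x '' Set.Ico a b)

theorem mem_win {x : ℤ → G} {a b i : ℤ} (h₁ : a ≤ i) (h₂ : i < b) : x i ∈ win x a b :=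
  Subgroup.subset_closure ⟨i, ⟨h₁, h₂⟩, rfl⟩

theorem win_mono {x : ℤ → G} {a b a' b' : ℤ} (h₁ : a' ≤ a) (h₂ : b ≤ b') :
    win x a b ≤ win x a' b' :=
  Subgroup.closure_mono (Set.image_mono (Set.Ico_subset_Ico h₁ h₂))

theorem win_empty {x : ℤ → G} {a b : ℤ} (h : b ≤ a) : win x a b = ⊥ := by
  rw [win, Set.Ico_eq_empty (by omega), Set.image_empty, Subgroup.closure_empty]

theorem win_sup_win {x : ℤ → G} {a b a' b' : ℤ} (h₁ : a ≤ a') (h₂ : a' ≤ b) (h₃ : b ≤ b') :
    win x a b ⊔ win x a' b' = win x a b' := by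
  refine le_antisymm (sup_le (win_mono le_rfl h₃) (win_mono h₁ le_rfl)) ?_
  refine (Subgroup.closure_le _).2 ?_
  rintro _ ⟨i, ⟨hi₁, hi₂⟩, rfl⟩
  by_cases hi : i < b
  · exact Subgroup.mem_sup_left (mem_win hi₁ hi)
  · exact Subgroup.mem_sup_right (mem_win (by omega) hi₂)

theorem win_succ_left {x : ℤ → G} {a b : ℤ} (h : a < b) :
    win x a b = Subgroup.zpowers (x a) ⊔ win x (a + 1) b := by
  refine le_antisymm ((Subgroup.closure_le _).2 ?_)
    (sup_le (Subgroup.zpowers_le.2 (mem_win le_rfl h)) (win_mono (by omega) le_rfl))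
  rintro _ ⟨i, ⟨hi₁, hi₂⟩, rfl⟩
  rcases hi₁.eq_or_lt with rfl | hi
  · exact Subgroup.mem_sup_left (Subgroup.mem_zpowers _)
  · exact Subgroup.mem_sup_right (mem_win (by omega) hi₂)

/-- An element commuting with all generators commutes with the window. -/
theorem commute_win {x : ℤ → G} {a b : ℤ} {z w : G} (h : ∀ i, a ≤ i → i < b → Commute z (x i))
    (hw : w ∈ win x a b) : Commute z w := by
  have : win x a b ≤ Subgroup.centralizer {z} := (Subgroup.closure_le _).2 <| by
    rintro _ ⟨i, ⟨hi₁, hi₂⟩, rfl⟩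
    exact Subgroup.mem_centralizer_singleton_iff.2 (h i hi₁ hi₂).eq.symm
  exact (Subgroup.mem_centralizer_singleton_iff.1 (this hw)).symm

/-- Two windows commute if all their generators do. -/
theorem commute_win_win {x : ℤ → G} {a b a' b' : ℤ} {z w : G}
    (h : ∀ i, a ≤ i → i < b → ∀ j, a' ≤ j → j < b' → Commute (x i) (x j))
    (hz : z ∈ win x a b) (hw : w ∈ win x a' b') : Commute z w :=
  commute_win (fun j hj₁ hj₂ => (commute_win (fun i hi₁ hi₂ => (h i hi₁ hi₂ j hj₁ hj₂).symm) hz).symm) hw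

/-- The Sims conditions on a sequence. -/
structure Windowed (p : ℕ) (t : ℕ) (x : ℤ → G) : Prop where
  card : ∀ (a : ℤ) (m : ℕ), m ≤ t → Nat.card (win x a (a + m)) = p ^ m
  comm : ∀ i j : ℤ, i < j → j < i + t → x i * x j * (x i)⁻¹ * (x j)⁻¹ ∈ win x (i + 1) j
  shift : ∀ i j k : ℤ, Commute (x i) (x j) → Commute (x (i + k)) (x (j + k))

variable {p t : ℕ} {x : ℤ → G}

theorem win_single (x : ℤ → G) (a : ℤ) : win x a (a + 1) = Subgroup.zpowers (x a) := by
  rw [win_succ_left (by omega), win_empty le_rfl, sup_bot_eq]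

theorem Windowed.orderOf_eq (h : Windowed p t x) (ht : 1 ≤ t) (a : ℤ) : orderOf (x a) = p := by
  have := h.card a 1 ht
  rwa [pow_one, Nat.cast_one, win_single, Nat.card_zpowers] at this

/-- Reflection of a sequence. -/
theorem win_reflect (x : ℤ → G) (c a b : ℤ) :
    win (fun i => x (c - i)) a b = win x (c - b + 1) (c - a + 1) := by
  unfold win
  congr 1
  ext y
  constructor
  · rintro ⟨i, ⟨hi₁, hi₂⟩, rfl⟩
    exact ⟨c - i, ⟨by omega, by omega⟩, rfl⟩
  · rintro ⟨i, ⟨hi₁, hi₂⟩, rfl⟩
    exact ⟨c - i, ⟨by omega, by omega⟩, by simp⟩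

theorem Windowed.reflect (h : Windowed p t x) (c : ℤ) :
    Windowed p t (fun i => x (c - i)) where
  card a m hm := by
    rw [win_reflect]
    have := h.card (c - (a + m) + 1) m hm
    rwa [show c - (a + m) + 1 + m = c - a + 1 by omega] at this
  comm i j hij hjt := by
    rw [win_reflect, show c - (i + 1) + 1 = c - i by omega]
    have := inv_mem (h.comm (c - j) (c - i) (by omega) (by omega))
    simpa [mul_assoc] using this
  shift i j k hc := by
    have := h.shift _ _ (-k) hc
    rwa [show c - i + -k = c - (i + k) by omega, show c - j + -k = c - (j + k) by omega] at this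

/-- The key step: the commutator `⁅x 0, x s⁆` avoids `x a` for small `a`. -/
theorem Windowed.step (h : Windowed p t x) (hp : p.Prime) {s : ℕ} (hst : s < t)
    (hmin : ∀ i j : ℤ, i - s < j → j < i + s → Commute (x i) (x j))
    (hne : ¬ Commute (x 0) (x s)) {a b : ℤ} (ha : 1 ≤ a) (hb : b ≤ s) (hat : a + s < t)
    (hw : x 0 * x s * (x 0)⁻¹ * (x s)⁻¹ ∈ win x a b) :
    x 0 * x s * (x 0)⁻¹ * (x s)⁻¹ ∈ win x (a + 1) b := by
  rcases le_or_gt b a with hab | hab
  · rw [win_empty hab] at hw
    exact (Subgroup.mem_bot.1 hw).symm ▸ one_mem _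
  set w := x 0 * x s * (x 0)⁻¹ * (x s)⁻¹ with hwdef
  set c := x (a + s) with hc
  set u := c * x 0 * c⁻¹ * (x 0)⁻¹ with hu
  have hu' : u ∈ win x 1 (a + s) := by
    have := inv_mem (h.comm 0 (a + s) (by omega) (by omega))
    rw [hu]
    simpa [mul_assoc] using this
  have huw : Commute u w := commute_win_win
    (fun i _ _ j _ _ => hmin i j (by omega) (by omega)) hu' hw
  have hus : Commute u (x s) :=
    (commute_win (fun i _ _ => hmin s i (by omega) (by omega)) hu').symm
  have hcs : Commute c (x s) := hmin _ _ (by omega) (by omega)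
  have hcw : Commute c w := by
    have e : c * w * c⁻¹ = w := by
      calc c * w * c⁻¹ = (c * x 0 * c⁻¹) * (c * x s * c⁻¹) * (c * x 0 * c⁻¹)⁻¹ * (c * x s * c⁻¹)⁻¹ := by
            rw [hwdef]; group
        _ = (u * x 0) * x s * (u * x 0)⁻¹ * (x s)⁻¹ := by
            rw [hcs.eq, mul_inv_cancel_right, hu, inv_mul_cancel_right]
        _ = u * w * (x s * u⁻¹ * (x s)⁻¹) := by rw [hwdef]; group
        _ = w := by
            rw [(hus.symm.inv_right).eq, mul_inv_cancel_right, huw.eq, mul_inv_cancel_right]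
    exact mul_inv_eq_iff_eq_mul.1 e
  rw [win_succ_left hab] at hw
  have hnorm : Subgroup.zpowers (x a) ≤ Subgroup.normalizer (win x (a + 1) b : Set G) := by
    refine Subgroup.zpowers_le.2 (Subgroup.centralizer_le_normalizer _ ?_)
    exact Subgroup.mem_centralizer_iff.2 fun r hr =>
      (commute_win (fun i _ _ => hmin a i (by omega) (by omega)) hr).eq.symm
  obtain ⟨z, hz, r, hr, hzr⟩ : w ∈ (Subgroup.zpowers (x a) : Set G) * (win x (a + 1) b : Set G) := by
    rw [← Subgroup.coe_mul_of_left_le_normalizer_right _ _ hnorm]; exact hw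
  change z * r = w at hzr
  suffices z = 1 by rw [← hzr, this, one_mul]; exact hr
  by_contra hz1
  have hcr : Commute c r := commute_win (fun i _ _ => hmin _ i (by omega) (by omega)) hr
  have hcz : Commute c z := by
    have : z = w * r⁻¹ := by rw [← hzr, mul_inv_cancel_right]
    rw [this]; exact hcw.mul_right hcr.inv_right
  have hgen : x a ∈ Subgroup.zpowers z := by
    haveI : Fact p.Prime := ⟨hp⟩
    exact mem_zpowers_of_prime_card (p := p) (G := Subgroup.zpowers (x a))
      (g := ⟨z, hz⟩) (g' := ⟨x a, Subgroup.mem_zpowers _⟩)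
      (by rw [Nat.card_zpowers, h.orderOf_eq (by omega)]) (by simpa using hz1) |> fun hm => by
        obtain ⟨k, hk⟩ := Subgroup.mem_zpowers_iff.1 hm
        exact Subgroup.mem_zpowers_iff.2 ⟨k, by simpa using congrArg Subtype.val hk⟩
  obtain ⟨k, hk⟩ := Subgroup.mem_zpowers_iff.1 hgen
  have hca : Commute (x a) c := by rw [← hk]; exact (hcz.zpow_right k).symm
  have := h.shift _ _ (-a) hca
  rw [add_neg_cancel, show a + (s : ℤ) + -a = s by omega] at this
  exact hne this

/-- Iterating `step`. -/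
theorem Windowed.steps (h : Windowed p t x) (hp : p.Prime) {s : ℕ} (hst : s < t)
    (hmin : ∀ i j : ℤ, i - s < j → j < i + s → Commute (x i) (x j))
    (hne : ¬ Commute (x 0) (x s)) {b : ℤ} (hb : b ≤ s) (n : ℕ) (hn : (n : ℤ) + s < t)
    (hw : x 0 * x s * (x 0)⁻¹ * (x s)⁻¹ ∈ win x 1 b) :
    x 0 * x s * (x 0)⁻¹ * (x s)⁻¹ ∈ win x (1 + n) b := by
  induction n with
  | zero => simpa using hw
  | succ n ih =>
    rw [show (1 : ℤ) + (n + 1 : ℕ) = 1 + n + 1 by omega]
    exact h.step hp hst hmin hne (by omega) hb (by omega) (ih (by omega))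

/-- Sims' inequality. -/
theorem Windowed.two_mul_le (h : Windowed p t x) (hp : p.Prime) {s : ℕ} (hs : 1 ≤ s) (hst : s < t)
    (hmin : ∀ i j : ℤ, i - s < j → j < i + s → Commute (x i) (x j))
    (hne : ¬ Commute (x 0) (x s)) : 2 * t ≤ 3 * s := by
  by_contra hcon
  set w := x 0 * x s * (x 0)⁻¹ * (x s)⁻¹ with hwdef
  have h1 : w ∈ win x 1 s := by simpa using h.comm 0 s (by omega) (by omega)
  have hw1 : w ≠ 1 := fun e => hne (commutatorElement_eq_one_iff_commute.1 e)
  -- `n` steps are allowed as long as `n + s < t`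
  let n : ℕ := t - s - 1
  have hrefl : w⁻¹ ∈ win x 1 (2 * s - t + 1 : ℤ) := by
    have h' := (h.reflect s).steps hp hst (fun i j hi hj => hmin ((s : ℤ) - i) (s - j) (by omega) (by omega))
      (by simpa using fun e : Commute (x s) (x 0) => hne e.symm) (b := s) le_rfl n (by omega)
      (by rw [win_reflect]; simpa [hwdef, mul_assoc] using inv_mem h1)
    rw [win_reflect] at h'
    have h'' : w⁻¹ ∈ win x ((s : ℤ) - s + 1) (s - (1 + n) + 1) := by
      simpa [hwdef, mul_assoc] using h'
    exact win_mono (by omega) (by omega) h''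
  have h2 := h.steps hp hst hmin hne (b := 2 * s - t + 1) (by omega) n (by omega)
    (by simpa [hwdef] using inv_mem hrefl)
  rw [win_empty (by omega), Subgroup.mem_bot] at h2
  exact hw1 h2

end Cfsg.Agent.H91.Sims
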